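import Cfsg.Agent.MulX.Rep

/-!
Generation and trivial centralisers from transversal words (owner: helper7).

`wact w tb u i`: image of the point `i` under the word `u` (product of the letters, acting on the left).
`chB`: a base with transversal words gives a lower bound of the order of the group generated by the letters, without any
verification of strong generation.
-/
set_option autoImplicit false

namespace Cfsg.Agent.MLin

open Cfsg.Agent.CosetEnum Cfsg.Agent.PermTab Cfsg.Agent.MulX Cfsg.Agent.LE Subgroup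

/-- image of a point under a word -/
noncomputable def wact (w : ℕ) (tb : ℕ → ℕ) (u : List ℕ) (i : ℕ) : ℕ :=
  @List.rec ℕ (fun _ => ℕ) i (fun x _ ih => tget w (tb x) ih) u

theorem wact_nil (w : ℕ) (tb : ℕ → ℕ) (i : ℕ) : wact w tb [] i = i := rfl

theorem wact_cons (w : ℕ) (tb : ℕ → ℕ) (x : ℕ) (u : List ℕ) (i : ℕ) :
    wact w tb (x :: u) i = tget w (tb x) (wact w tb u i) := rfl

/-- all letters of the word are letters -/
noncomputable def wletB (ng : ℕ) (u : List ℕ) : Bool := lall u (fun x => isLet ng x)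

/-- increasing images -/
noncomputable def incB (w : ℕ) (tb : ℕ → ℕ) (b : ℕ) (ws : List (List ℕ)) (lo : ℕ) : Bool :=
  @List.rec (List ℕ) (fun _ => ℕ → Bool) (fun _ => true)
    (fun u _ ih lo => fc (wact w tb u b) (fun y => Bool.and (Nat.ble lo y) (ih (Nat.succ y)))) ws lo

theorem incB_nil (w : ℕ) (tb : ℕ → ℕ) (b lo : ℕ) : incB w tb b [] lo = true := rfl

theorem incB_cons (w : ℕ) (tb : ℕ → ℕ) (b : ℕ) (u : List ℕ) (ws : List (List ℕ)) (lo : ℕ) :
    incB w tb b (u :: ws) lo = (Nat.ble lo (wact w tb u b) && incB w tb b ws (wact w tb u b + 1)) := by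
  have h : incB w tb b (u :: ws) lo =
      fc (wact w tb u b) (fun y => Bool.and (Nat.ble lo y) (incB w tb b ws (Nat.succ y))) := rfl
  rw [h, fc_eq]

/-- the words have letters and fix the points of `prev` -/
noncomputable def fixB (w : ℕ) (tb : ℕ → ℕ) (ng : ℕ) (prev : List ℕ) (ws : List (List ℕ)) : Bool :=
  lall ws (fun u => Bool.and (wletB ng u) (lall prev (fun c => Nat.beq (wact w tb u c) c)))

/-- chain of transversals -/
noncomputable def chB (w n : ℕ) (tb : ℕ → ℕ) (ng : ℕ) (L : List (ℕ × List (List ℕ))) (prev : List ℕ) : Bool :=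
  @List.rec (ℕ × List (List ℕ)) (fun _ => List ℕ → Bool) (fun _ => true)
    (fun p _ ih prev => Bool.and (Nat.blt p.1 n) (Bool.and (fixB w tb ng prev p.2)
      (Bool.and (incB w tb p.1 p.2 0) (ih (p.1 :: prev))))) L prev

theorem chB_cons (w n : ℕ) (tb : ℕ → ℕ) (ng : ℕ) (p : ℕ × List (List ℕ)) (L : List (ℕ × List (List ℕ))) (prev : List ℕ) :
    chB w n tb ng (p :: L) prev = (Nat.blt p.1 n && (fixB w tb ng prev p.2 && (incB w tb p.1 p.2 0 &&
      chB w n tb ng L (p.1 :: prev)))) := rfl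

/-- product of the lengths -/
def chCard (L : List (ℕ × List (List ℕ))) : ℕ := (L.map fun p => p.2.length).prod

section

variable {w n : ℕ} {tb : ℕ → ℕ}

theorem incB_spec {b : ℕ} : ∀ (ws : List (List ℕ)) (lo : ℕ), incB w tb b ws lo = true →
    (∀ u ∈ ws, lo ≤ wact w tb u b) ∧ (ws.map fun u => wact w tb u b).Pairwise (· < ·) := by
  intro ws
  induction ws with
  | nil => intro lo _; simp
  | cons u ws ih =>
    intro lo h
    rw [incB_cons, Bool.and_eq_true] at h
    obtain ⟨h1, h2⟩ := h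
    have h1' : lo ≤ wact w tb u b := Nat.le_of_ble_eq_true h1
    obtain ⟨h3, h4⟩ := ih _ h2
    refine ⟨?_, ?_⟩
    · intro v hv
      rcases List.mem_cons.1 hv with rfl | hv
      · exact h1'
      · have := h3 v hv; omega
    · rw [List.map_cons, List.pairwise_cons]
      refine ⟨?_, h4⟩
      intro y hy
      obtain ⟨v, hv, rfl⟩ := List.mem_map.1 hy
      have := h3 v hv
      omega

variable {G : Type*} [Group G] {g : ℕ → G} {D : Subgroup (G × Equiv.Perm (Fin n))}

/-- elements with their permutations -/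
def prodSet (D : Subgroup (G × Equiv.Perm (Fin n))) (K : Subgroup G) (prev : List ℕ) :
    Subgroup (Equiv.Perm (Fin n)) where
  carrier := {σ | (∃ a ∈ K, (a, σ) ∈ D) ∧ ∀ i : Fin n, (i : ℕ) ∈ prev → σ i = i}
  one_mem' := ⟨⟨1, one_mem _, one_mem D⟩, fun _ _ => rfl⟩
  mul_mem' := by
    rintro σ τ ⟨⟨a, ha, h1⟩, h2⟩ ⟨⟨b, hb, h3⟩, h4⟩
    refine ⟨⟨a * b, mul_mem ha hb, D.mul_mem h1 h3⟩, fun i hi => ?_⟩
    rw [Equiv.Perm.mul_apply, h4 i hi, h2 i hi]
  inv_mem' := by
    rintro σ ⟨⟨a, ha, h1⟩, h2⟩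
    refine ⟨⟨a⁻¹, inv_mem ha, D.inv_mem h1⟩, fun i hi => ?_⟩
    rw [Equiv.Perm.inv_eq_iff_eq, h2 i hi]

theorem word_spec (hv : ∀ x, tvalid w n (tb x) = true) (hm : ∀ x, (g x, toPerm w n (tb x)) ∈ D) (u : List ℕ) :
    ∃ σ : Equiv.Perm (Fin n), ((u.map g).prod, σ) ∈ D ∧ ∀ i : Fin n, ((σ i : Fin n) : ℕ) = wact w tb u i := by
  induction u with
  | nil => exact ⟨1, D.one_mem, fun i => rfl⟩
  | cons x u ih =>
    obtain ⟨σ, h1, h2⟩ := ih
    refine ⟨toPerm w n (tb x) * σ, ?_, fun i => ?_⟩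
    · rw [List.map_cons, List.prod_cons]
      exact D.mul_mem (hm x) h1
    · rw [Equiv.Perm.mul_apply, toPerm_apply (hv x), h2, wact_cons]

theorem chain_card (hv : ∀ x, tvalid w n (tb x) = true) (hm : ∀ x, (g x, toPerm w n (tb x)) ∈ D) {ng : ℕ} :
    ∀ (L : List (ℕ × List (List ℕ))) (prev : List ℕ), chB w n tb ng L prev = true →
      chCard L ≤ Nat.card (prodSet D (Cl g ng) prev) := by
  intro L
  induction L with
  | nil =>
    intro prev _
    have : chCard [] = 1 := rfl
    rw [this]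
    exact Nat.card_pos
  | cons p L ih =>
    intro prev h
    rw [chB_cons] at h
    simp only [Bool.and_eq_true] at h
    obtain ⟨h1, h2, h3, h4⟩ := h
    have hb : p.1 < n := Nat.lt_of_succ_le (Nat.le_of_ble_eq_true h1)
    obtain ⟨-, h5⟩ := incB_spec p.2 0 h3
    have h6 := ih _ h4
    have hw : ∀ u ∈ p.2, ∃ σ ∈ prodSet D (Cl g ng) prev, ∀ i : Fin n, ((σ i : Fin n) : ℕ) = wact w tb u i := by
      intro u hu
      have hf := (lall_iff _ _).1 h2 u hu
      rw [Bool.and_eq_true] at hf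
      obtain ⟨hf1, hf2⟩ := hf
      obtain ⟨σ, hσ, hσ'⟩ := word_spec hv hm u
      refine ⟨σ, ⟨⟨_, ?_, hσ⟩, ?_⟩, hσ'⟩
      · have hl : ∀ x ∈ u, isLet ng x = true := fun x hx => (lall_iff _ _).1 hf1 x hx
        clear hf1 hf2 hσ hσ' hu
        induction u with
        | nil => exact one_mem _
        | cons x u ihu =>
          rw [List.map_cons, List.prod_cons]
          exact mul_mem (subset_closure ⟨x, hl x (by simp), rfl⟩) (ihu fun y hy => hl y (by simp [hy]))
      · intro i hi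
        apply Fin.ext
        rw [hσ']
        exact Nat.eq_of_beq_eq_true ((lall_iff _ _).1 hf2 _ hi)
    have hidx : ∀ j : Fin p.2.length, ∃ σ ∈ prodSet D (Cl g ng) prev, ∀ i : Fin n, ((σ i : Fin n) : ℕ) = wact w tb (p.2.get j) i :=
      fun j => hw _ (List.get_mem _ _)
    choose s hs hs' using hidx
    have hle : prodSet D (Cl g ng) (p.1 :: prev) ≤ prodSet D (Cl g ng) prev := by
      rintro σ ⟨h7, h8⟩
      exact ⟨h7, fun i hi => h8 i (by simp [hi])⟩
    have hinj : Function.Injective (fun x : Fin p.2.length × prodSet D (Cl g ng) (p.1 :: prev) =>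
        (⟨s x.1 * x.2, mul_mem (hs x.1) (hle x.2.2)⟩ : prodSet D (Cl g ng) prev)) := by
      rintro ⟨j, σ⟩ ⟨k, τ⟩ hjk
      have e1 : s j * σ = s k * (τ : Equiv.Perm (Fin n)) := congrArg Subtype.val hjk
      have e2 := congrArg (fun π : Equiv.Perm (Fin n) => π ⟨p.1, hb⟩) e1
      simp only [Equiv.Perm.mul_apply] at e2
      have f1 : (σ : Equiv.Perm (Fin n)) ⟨p.1, hb⟩ = ⟨p.1, hb⟩ := σ.2.2 _ (by simp)
      have f2 : (τ : Equiv.Perm (Fin n)) ⟨p.1, hb⟩ = ⟨p.1, hb⟩ := τ.2.2 _ (by simp)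
      rw [f1, f2] at e2
      have e3 := congrArg Fin.val e2
      rw [hs', hs'] at e3
      have hjk' : j = k := by
        by_contra hne
        rw [List.pairwise_iff_getElem] at h5
        rcases lt_or_gt_of_ne hne with hlt | hlt
        · have := h5 j k (by simp) (by simp) hlt
          simp only [List.getElem_map] at this
          simp only [List.get_eq_getElem] at e3
          omega
        · have := h5 k j (by simp) (by simp) hlt
          simp only [List.getElem_map] at this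
          simp only [List.get_eq_getElem] at e3
          omega
      subst hjk'
      have e4 : (σ : Equiv.Perm (Fin n)) = τ := mul_left_cancel e1
      rw [Subtype.ext e4]
    have h8 := Nat.card_le_card_of_injective _ hinj
    rw [Nat.card_prod, Nat.card_fin] at h8
    have h9 : chCard (p :: L) = p.2.length * chCard L := by simp [chCard]
    rw [h9]
    exact (Nat.mul_le_mul_left _ h6).trans h8

/-- generation -/
theorem top_of_chain [Finite G] (hv : ∀ x, tvalid w n (tb x) = true) (hm : ∀ x, (g x, toPerm w n (tb x)) ∈ D)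
    (hfn : ∀ σ : Equiv.Perm (Fin n), ((1 : G), σ) ∈ D → σ = 1) {ng : ℕ} {L : List (ℕ × List (List ℕ))}
    (hL : chB w n tb ng L [] = true) (hc : Nat.card G ≤ chCard L) : Cl g ng = ⊤ := by
  have h1 := chain_card hv hm L [] hL
  have h2 : Nat.card (prodSet D (Cl g ng) []) ≤ Nat.card (Cl g ng) := by
    have h : ∀ σ : prodSet D (Cl g ng) [], ∃ a : Cl g ng, ((a : G), (σ : Equiv.Perm (Fin n))) ∈ D := by
      rintro ⟨σ, ⟨a, ha, h3⟩, -⟩
      exact ⟨⟨a, ha⟩, h3⟩
    choose f hf using h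
    apply Nat.card_le_card_of_injective f
    intro σ τ hστ
    apply Subtype.ext
    have h1 := hf σ
    rw [hστ] at h1
    have h2 := D.mul_mem (D.inv_mem (hf τ)) h1
    have h3 : (((f τ : Cl g ng) : G), (τ : Equiv.Perm (Fin n)))⁻¹ * (((f τ : Cl g ng) : G), (σ : Equiv.Perm (Fin n))) =
        (1, (τ : Equiv.Perm (Fin n))⁻¹ * σ) := by
      apply Prod.ext
      · simp
      · rfl
    rw [h3] at h2
    exact (inv_mul_eq_one.1 (hfn _ h2)).symm
  exact Subgroup.eq_top_of_le_card _ (hc.trans (h1.trans h2))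

/-- words fixing the points `fr` -/
noncomputable def frB (w : ℕ) (tb : ℕ → ℕ) (fr : List ℕ) (us : List (List ℕ)) : Bool :=
  lall us (fun u => lall fr (fun c => Nat.beq (wact w tb u c) c))

theorem frB_spec (hv : ∀ x, tvalid w n (tb x) = true) (hm : ∀ x, (g x, toPerm w n (tb x)) ∈ D)
    {fr : List ℕ} (hfr : ∀ (a : G) (σ : Equiv.Perm (Fin n)), (a, σ) ∈ D → (∀ i : Fin n, (i : ℕ) ∈ fr → σ i = i) → a = 1)
    {us : List (List ℕ)} (h : frB w tb fr us = true) : ∀ u ∈ us, (u.map g).prod = 1 := by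
  intro u hu
  obtain ⟨σ, h1, h2⟩ := word_spec hv hm u
  apply hfr _ σ h1
  intro i hi
  apply Fin.ext
  rw [h2]
  exact Nat.eq_of_beq_eq_true ((lall_iff _ _).1 ((lall_iff _ _).1 h u hu) _ hi)

/-- **The central presentation** from tables, frame points and a chain. -/
theorem cp_of_frame [Finite G] (hv : ∀ x, tvalid w n (tb x) = true) (hm : ∀ x, (g x, toPerm w n (tb x)) ∈ D)
    (hfn : ∀ σ : Equiv.Perm (Fin n), ((1 : G), σ) ∈ D → σ = 1)
    {fr : List ℕ} (hfr : ∀ (a : G) (σ : Equiv.Perm (Fin n)), (a, σ) ∈ D → (∀ i : Fin n, (i : ℕ) ∈ fr → σ i = i) → a = 1)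
    {ng : ℕ} {iv : List (ℕ × ℕ)} {R1 : List (ℕ × List ℕ)} {R2 : List (List ℕ)} {RL : List (List ℕ × ℕ)}
    (hlet : letB ng iv = true) (htri : triB ng iv R1 = true) (hrel : relB iv ng R1 R2 RL = true)
    (hcov : (List.range (ng + 1)).all (fun x => !isLet ng x || (R1.any fun q => q.1 == x || ivL iv q.1 == x)) = true)
    (hinv : ∀ y, g (ivL iv y) = (g y)⁻¹) (hone : ∀ y, isLet ng y = false → g y = 1)
    (hR1 : frB w tb fr (R1.map Prod.snd) = true) (hR2 : frB w tb fr R2 = true)
    {L : List (ℕ × List (List ℕ))} (hL : chB w n tb ng L [] = true) (hc : Nat.card G ≤ chCard L) :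
    CP g ng iv R1 R2 RL :=
  ⟨hlet, htri, hrel, hcov, hinv, hone,
    fun q hq => frB_spec hv hm hfr hR1 q.2 (List.mem_map.2 ⟨q, hq, rfl⟩),
    fun u hu => frB_spec hv hm hfr hR2 u hu, top_of_chain hv hm hfn hL hc⟩

end

section Quot

variable {S : Type*} [Group S] {w n : ℕ} {tb : ℕ → ℕ} {g : ℕ → S} {D : Subgroup (S × Equiv.Perm (Fin n))}

/-- the words `ws` fix `0` and each other point is moved by one of them -/
noncomputable def mvB (w n : ℕ) (tb : ℕ → ℕ) (ws : List (List ℕ)) : Bool :=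
  Bool.and (lall ws fun u => Nat.beq (wact w tb u 0) 0)
    (nall (fun β => Bool.or (Nat.beq β 0) (lany ws fun u => !(Nat.beq (wact w tb u β) β))) n)

/-- the centraliser in `Perm` of the permutations of `D` is trivial -/
theorem cent_trivial (hv : ∀ x, tvalid w n (tb x) = true) (hm : ∀ x, (g x, toPerm w n (tb x)) ∈ D)
    {ws ts : List (List ℕ)} (hws : mvB w n tb ws = true) (hts : incB w tb 0 ts 0 = true) (hlen : ts.length = n)
    (hn : 0 < n) (σ : Equiv.Perm (Fin n)) (hσ : ∀ a τ, (a, τ) ∈ D → σ * τ = τ * σ) : σ = 1 := by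
  unfold mvB at hws
  rw [Bool.and_eq_true] at hws
  obtain ⟨h1, h2⟩ := hws
  set z : Fin n := ⟨0, hn⟩ with hz
  have h3 : σ z = z := by
    by_contra hne
    have h4 := (nall_iff _ _).1 h2 (σ z) (σ z).2
    rw [Bool.or_eq_true] at h4
    rcases h4 with h4 | h4
    · exact hne (Fin.ext (Nat.eq_of_beq_eq_true h4))
    · rw [lany_iff] at h4
      obtain ⟨u, hu, h5⟩ := h4
      obtain ⟨τ, h6, h7⟩ := word_spec hv hm u
      have h8 : τ z = z := by
        apply Fin.ext
        rw [h7]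
        exact Nat.eq_of_beq_eq_true ((lall_iff _ _).1 h1 u hu)
      have h9 := congrArg (fun π : Equiv.Perm (Fin n) => π z) (hσ _ _ h6)
      simp only [Equiv.Perm.mul_apply, h8] at h9
      have h10 : wact w tb u (σ z) = (σ z : ℕ) := by rw [← h7, ← h9]
      rw [h10, Nat.beq_refl] at h5
      exact absurd h5 (by decide)
  -- the words reach every point
  have h4 : ∀ j : Fin n, ∃ u ∈ ts, wact w tb u 0 = j := by
    obtain ⟨-, h5⟩ := incB_spec ts 0 hts
    have h6 : ((ts.map fun u => wact w tb u 0).toFinset).card = n := by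
      rw [List.toFinset_card_of_nodup (h5.imp (fun h => ne_of_lt h)), List.length_map, hlen]
    have h7 : (ts.map fun u => wact w tb u 0).toFinset ⊆ Finset.range n := by
      intro y hy
      rw [List.mem_toFinset, List.mem_map] at hy
      obtain ⟨u, _, rfl⟩ := hy
      obtain ⟨τ, _, h8⟩ := word_spec hv hm u
      rw [Finset.mem_range, ← show ((τ z : Fin n) : ℕ) = wact w tb u 0 from h8 z]
      exact (τ z).2
    have h8 := Finset.eq_of_subset_of_card_le h7 (by rw [h6, Finset.card_range])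
    intro j
    have h9 : (j : ℕ) ∈ (ts.map fun u => wact w tb u 0).toFinset := by
      rw [h8, Finset.mem_range]; exact j.2
    rw [List.mem_toFinset, List.mem_map] at h9
    exact h9
  ext j
  obtain ⟨u, hu, h5⟩ := h4 j
  obtain ⟨τ, h6, h7⟩ := word_spec hv hm u
  have h8 : τ z = j := by
    apply Fin.ext
    rw [h7]; exact h5
  have h9 := congrArg (fun π : Equiv.Perm (Fin n) => π z) (hσ _ _ h6)
  simp only [Equiv.Perm.mul_apply, h3, h8] at h9
  rw [h9]; rfl

/-- pass to the quotient by the centre: the correspondence `quotD D` -/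
theorem quot_fn (hv : ∀ x, tvalid w n (tb x) = true) (hm : ∀ x, (g x, toPerm w n (tb x)) ∈ D)
    (hfn : ∀ σ : Equiv.Perm (Fin n), ((1 : S), σ) ∈ D → σ = 1)
    {ws ts : List (List ℕ)} (hws : mvB w n tb ws = true) (hts : incB w tb 0 ts 0 = true) (hlen : ts.length = n)
    (hn : 0 < n) (σ : Equiv.Perm (Fin n)) (h : ((1 : S ⧸ center S), σ) ∈ quotD D) : σ = 1 := by
  obtain ⟨⟨b, τ⟩, hb, he⟩ := h
  have h1 : (QuotientGroup.mk' (center S)) b = 1 := congrArg Prod.fst he
  have h2 : τ = σ := congrArg Prod.snd he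
  subst h2
  have hbc : b ∈ center S := (QuotientGroup.eq_one_iff b).1 h1
  apply cent_trivial hv hm hws hts hlen hn
  intro a π ha
  have h3 := D.mul_mem (D.mul_mem (D.mul_mem hb ha) (D.inv_mem hb)) (D.inv_mem ha)
  have h4 : (b, τ) * (a, π) * (b, τ)⁻¹ * (a, π)⁻¹ = (1, τ * π * τ⁻¹ * π⁻¹) := by
    apply Prod.ext
    · show b * a * b⁻¹ * a⁻¹ = 1
      rw [← mem_center_iff.1 hbc a]; group
    · rfl
  rw [h4] at h3
  have h5 := hfn _ h3
  rw [mul_inv_eq_one, mul_inv_eq_iff_eq_mul] at h5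
  exact h5

theorem quot_mem (hm : ∀ x, (g x, toPerm w n (tb x)) ∈ D) (x : ℕ) :
    ((QuotientGroup.mk' (center S)) (g x), toPerm w n (tb x)) ∈ quotD D := ⟨_, hm x, rfl⟩

theorem quot_fr {fr : List ℕ}
    (hfr : ∀ (a : S) (σ : Equiv.Perm (Fin n)), (a, σ) ∈ D → (∀ i : Fin n, (i : ℕ) ∈ fr → σ i = i) → a ∈ center S)
    (a : S ⧸ center S) (σ : Equiv.Perm (Fin n)) (ha : (a, σ) ∈ quotD D) (h : ∀ i : Fin n, (i : ℕ) ∈ fr → σ i = i) :
    a = 1 := by
  obtain ⟨⟨b, τ⟩, hb, he⟩ := ha
  have h1 : (QuotientGroup.mk' (center S)) b = a := congrArg Prod.fst he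
  have h2 : τ = σ := congrArg Prod.snd he
  subst h2
  rw [← h1]
  exact (QuotientGroup.eq_one_iff b).2 (hfr b τ hb h)

end Quot

end Cfsg.Agent.MLin
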