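import Cfsg.Agent.MLin.Chain
import Cfsg.Agent.MulX.Proj

/-!
Coded linear algebra over small fields and correspondences with permutation tables (owner: helper7).

Field elements are numbers `< 2 ^ s`, addition and multiplication are tables; vectors are numbers with `s`-bit digits,
matrices are numbers whose `s * d`-bit digits are the rows.
-/
set_option autoImplicit false
set_option linter.unusedSectionVars false

namespace Cfsg.Agent.MLin

open Cfsg.Agent.CosetEnum Cfsg.Agent.PermTab Cfsg.Agent.MulX Subgroup Matrix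

/-- operation from a table -/
noncomputable def op (s T a b : ℕ) : ℕ := tget s T (Nat.add (Nat.mul a (Nat.pow 2 s)) b)

theorem op_lt (s T a b : ℕ) : op s T a b < 2 ^ s := tget_lt _ _ _

/-- coded scalar product of the first `d` digits -/
noncomputable def dotc (s A M r v d : ℕ) : ℕ → ℕ :=
  @Nat.rec (fun _ => ℕ → ℕ) (fun acc => acc)
    (fun k ih acc => fc (op s A acc (op s M (tget s r k) (tget s v k))) ih) d

theorem dotc_zero (s A M r v acc : ℕ) : dotc s A M r v 0 acc = acc := rfl

theorem dotc_succ (s A M r v d acc : ℕ) :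
    dotc s A M r v (d + 1) acc = dotc s A M r v d (op s A acc (op s M (tget s r d) (tget s v d))) := by
  have h : dotc s A M r v (d + 1) acc = fc (op s A acc (op s M (tget s r d) (tget s v d))) (dotc s A M r v d) := rfl
  rw [h, fc_eq]

/-- code of the product of a matrix and a vector -/
noncomputable def mvc (s A M d m v : ℕ) : ℕ := tbuild s (fun a => dotc s A M (tget (Nat.mul s d) m a) v d 0) d

/-- code of a multiple of a vector -/
noncomputable def smc (s M d k v : ℕ) : ℕ := tbuild s (fun a => op s M k (tget s v a)) d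

/-- soundness of the tables -/
structure Cod (s A M q : ℕ) {F : Type*} [Field F] (dec : ℕ → F) : Prop where
  zero : dec 0 = 0
  one : dec 1 = 1
  add : ∀ a < 2 ^ s, ∀ b < 2 ^ s, dec (op s A a b) = dec a + dec b
  mul : ∀ a < 2 ^ s, ∀ b < 2 ^ s, dec (op s M a b) = dec a * dec b
  inj : ∀ a < q, ∀ b < q, dec a = dec b → a = b
  pos : 0 < s
  hq : 1 < q

theorem Cod.map {s A M q : ℕ} {F K : Type*} [Field F] [Field K] {dec : ℕ → F} (C : Cod s A M q dec) (f : F →+* K) :
    Cod s A M q (fun a => f (dec a)) :=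
  ⟨by rw [C.zero, map_zero], by rw [C.one, map_one], fun a ha b hb => by rw [C.add a ha b hb, map_add],
    fun a ha b hb => by rw [C.mul a ha b hb, map_mul], fun a ha b hb h => C.inj a ha b hb (f.injective h), C.pos, C.hq⟩

section

variable {s A M q d : ℕ} {F : Type*} [Field F] {dec : ℕ → F} {ι : Type*} [Fintype ι] [DecidableEq ι]

theorem Cod.dot (C : Cod s A M q dec) (r v : ℕ) : ∀ d acc : ℕ, acc < 2 ^ s →
    dotc s A M r v d acc < 2 ^ s ∧
      dec (dotc s A M r v d acc) = dec acc + ∑ k ∈ Finset.range d, dec (tget s r k) * dec (tget s v k) := by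
  intro d
  induction d with
  | zero => intro acc h; rw [dotc_zero]; simp [h]
  | succ d ih =>
    intro acc h
    rw [dotc_succ]
    obtain ⟨h1, h2⟩ := ih _ (op_lt s A acc (op s M (tget s r d) (tget s v d)))
    refine ⟨h1, ?_⟩
    rw [h2, C.add _ h _ (op_lt _ _ _ _), C.mul _ (tget_lt _ _ _) _ (tget_lt _ _ _), Finset.sum_range_succ]
    ring

/-- vector of a code -/
def vc (s : ℕ) (dec : ℕ → F) (e : ι ≃ Fin d) (v : ℕ) : ι → F := fun i => dec (tget s v (e i))

/-- matrix of a code -/
def mc (s : ℕ) (dec : ℕ → F) (e : ι ≃ Fin d) (m : ℕ) : Matrix ι ι F :=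
  fun i j => dec (tget s (tget (s * d) m (e i)) (e j))

theorem sum_code (e : ι ≃ Fin d) (f : ℕ → F) : ∑ i, f (e i) = ∑ k ∈ Finset.range d, f k := by
  rw [Finset.sum_range]
  exact Fintype.sum_equiv e _ _ (fun _ => rfl)

theorem Cod.mulVec (C : Cod s A M q dec) (e : ι ≃ Fin d) (m v : ℕ) :
    mc s dec e m *ᵥ vc s dec e v = vc s dec e (mvc s A M d m v) := by
  funext i
  show ∑ j, dec (tget s (tget (s * d) m (e i)) (e j)) * dec (tget s v (e j)) = dec (tget s (mvc s A M d m v) (e i))
  have h1 : tget s (mvc s A M d m v) (e i) = dotc s A M (tget (s * d) m (e i)) v d 0 := by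
    unfold mvc
    exact tget_tbuild s _ d (fun i _ => (C.dot _ _ d 0 (by positivity)).1) _ (e i).2
  rw [h1, (C.dot _ _ d 0 (by positivity)).2, C.zero, zero_add]
  exact sum_code e (fun k => dec (tget s (tget (s * d) m (e i)) k) * dec (tget s v k))

theorem Cod.smul (C : Cod s A M q dec) (e : ι ≃ Fin d) {k : ℕ} (hk : k < 2 ^ s) (v : ℕ) :
    dec k • vc s dec e v = vc s dec e (smc s M d k v) := by
  funext i
  show dec k * dec (tget s v (e i)) = dec (tget s (smc s M d k v) (e i))
  have h1 : tget s (smc s M d k v) (e i) = op s M k (tget s v (e i)) := by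
    unfold smc
    exact tget_tbuild s _ d (fun i _ => op_lt _ _ _ _) _ (e i).2
  rw [h1, C.mul _ hk _ (tget_lt _ _ _)]

/-- the matrix `m` maps the point `i` to the multiple of the point `t i`; `w`-bit table `t`, codes of points in the table `cd` -/
noncomputable def actB (s A M q d m w t cd n : ℕ) : Bool :=
  nall (fun i => fc (mvc s A M d m (tget (Nat.mul s d) cd i)) (fun y =>
    fc (tget (Nat.mul s d) cd (tget w t i)) (fun z =>
      lany (List.range q) (fun k => Bool.and (Nat.blt 0 k) (Nat.beq (smc s M d k z) y))))) n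

theorem Cod.act (C : Cod s A M q dec) (hq : q ≤ 2 ^ s) (e : ι ≃ Fin d) {m w t cd n : ℕ}
    (h : actB s A M q d m w t cd n = true) : ∀ i < n, ∃ c : F, c ≠ 0 ∧
      mc s dec e m *ᵥ vc s dec e (tget (s * d) cd i) = c • vc s dec e (tget (s * d) cd (tget w t i)) := by
  intro i hi
  have h1 := (nall_iff _ _).1 h i hi
  rw [fc_eq, fc_eq, lany_iff] at h1
  obtain ⟨k, hk, h2⟩ := h1
  rw [Bool.and_eq_true] at h2
  obtain ⟨h3, h4⟩ := h2
  have hk' : k < q := List.mem_range.1 hk
  have hk0 : 0 < k := Nat.lt_of_succ_le (Nat.le_of_ble_eq_true h3)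
  refine ⟨dec k, ?_, ?_⟩
  · intro h5
    rw [← C.zero] at h5
    have := C.inj k hk' 0 (by have := C.hq; omega) h5
    omega
  · rw [C.mulVec, C.smul e (by omega)]
    congr 1
    exact (Nat.eq_of_beq_eq_true h4).symm

/-- normalised code: digits `< q`, first nonzero digit `1` -/
noncomputable def nrmB (s q d v : ℕ) : Bool :=
  Bool.and (Nat.blt v (Nat.pow 2 (Nat.mul s d))) (Bool.and (nall (fun k => Nat.blt (tget s v k) q) d)
    (lany (List.range d) fun k => Bool.and (Nat.beq (tget s v k) 1) (nall (fun j => Nat.beq (tget s v j) 0) k)))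

theorem code_ext {s d a b : ℕ} (hs : 0 < s) (ha : a < 2 ^ (s * d)) (hb : b < 2 ^ (s * d))
    (h : ∀ k < d, tget s a k = tget s b k) : a = b := by
  apply Nat.eq_of_testBit_eq
  intro i
  by_cases hi : i < s * d
  · have h1 : i / s < d := Nat.div_lt_of_lt_mul (by rwa [mul_comm] at hi ⊢; try exact hi)
    have h2 := h _ h1
    rw [tget_eq, tget_eq] at h2
    have key : ∀ c : ℕ, (c / 2 ^ (s * (i / s)) % 2 ^ s).testBit (i % s) = c.testBit i := by
      intro c
      rw [Nat.testBit_mod_two_pow, Nat.testBit_div_two_pow]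
      have h3 : i % s < s := Nat.mod_lt _ hs
      have h4 : i % s + s * (i / s) = i := Nat.mod_add_div i s
      simp [h3, h4]
    rw [← key a, ← key b, h2]
  · rw [Nat.testBit_lt_two_pow (lt_of_lt_of_le ha (Nat.pow_le_pow_right (by norm_num) (by omega))),
      Nat.testBit_lt_two_pow (lt_of_lt_of_le hb (Nat.pow_le_pow_right (by norm_num) (by omega)))]

theorem Cod.nrm (C : Cod s A M q dec) (e : ι ≃ Fin d) {a b : ℕ} (ha : nrmB s q d a = true) (hb : nrmB s q d b = true)
    {c : F} (h : vc s dec e a = c • vc s dec e b) : a = b := by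
  unfold nrmB at ha hb
  simp only [Bool.and_eq_true, lany_iff, nall_iff] at ha hb
  obtain ⟨ha1, ha2, k, hk, hk1, hk2⟩ := ha
  obtain ⟨hb1, hb2, l, hl, hl1, hl2⟩ := hb
  rw [List.mem_range] at hk hl
  have hval : ∀ j < d, dec (tget s a j) = c * dec (tget s b j) := by
    intro j hj
    have := congrFun h (e.symm ⟨j, hj⟩)
    simpa [vc] using this
  have hk1' := Nat.eq_of_beq_eq_true hk1
  have hl1' := Nat.eq_of_beq_eq_true hl1
  have hlt : ∀ {x y : ℕ}, Nat.blt x y = true → x < y := fun h => Nat.lt_of_succ_le (Nat.le_of_ble_eq_true h)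
  have hc : c = 1 := by
    rcases lt_trichotomy k l with hkl | hkl | hkl
    · have h1 := hval k hk
      rw [hk1', Nat.eq_of_beq_eq_true (hl2 k hkl), C.one, C.zero, mul_zero] at h1
      exact absurd h1 one_ne_zero
    · subst hkl
      have h1 := hval k hk
      rw [hk1', hl1', C.one, mul_one] at h1
      exact h1.symm
    · have h1 := hval l hl
      rw [Nat.eq_of_beq_eq_true (hk2 l hkl), hl1', C.one, C.zero, mul_one] at h1
      have h2 := hval k hk
      rw [hk1', ← h1, C.one, zero_mul] at h2
      exact absurd h2 one_ne_zero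
  apply code_ext C.pos (hlt ha1) (hlt hb1)
  intro j hj
  apply C.inj _ (hlt (ha2 j hj)) _ (hlt (hb2 j hj))
  rw [hval j hj, hc, one_mul]

/-- the codes of the points are normalised and increasing -/
noncomputable def ptsB (s q d cd n : ℕ) : Bool :=
  Bool.and (nall (fun i => nrmB s q d (tget (Nat.mul s d) cd i)) n)
    (nall (fun i => Nat.blt (tget (Nat.mul s d) cd i) (tget (Nat.mul s d) cd (Nat.succ i))) (Nat.pred n))

theorem Cod.pts (C : Cod s A M q dec) (e : ι ≃ Fin d) {cd n : ℕ} (h : ptsB s q d cd n = true) {i j : ℕ}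
    (hi : i < n) (hj : j < n) {c : F} (hc : vc s dec e (tget (s * d) cd i) = c • vc s dec e (tget (s * d) cd j)) : i = j := by
  unfold ptsB at h
  rw [Bool.and_eq_true, nall_iff, nall_iff] at h
  obtain ⟨h1, h2⟩ := h
  have h3 := C.nrm e (h1 i hi) (h1 j hj) hc
  have hmono : ∀ a b, a < b → b < n → tget (s * d) cd a < tget (s * d) cd b := by
    intro a b hab
    induction b, hab using Nat.le_induction with
    | base =>
      intro hb
      exact Nat.lt_of_succ_le (Nat.le_of_ble_eq_true (h2 a (by rw [Nat.pred_eq_sub_one]; omega)))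
    | succ b hb ih =>
      intro hb'
      exact (ih (by omega)).trans
        (Nat.lt_of_succ_le (Nat.le_of_ble_eq_true (h2 b (by rw [Nat.pred_eq_sub_one]; omega))))
  rcases lt_trichotomy i j with hij | hij | hij
  · have := hmono i j hij hj; rw [show tget (s * d) cd i = tget (s * d) cd j from h3] at this; omega
  · exact hij
  · have := hmono j i hij hi; rw [show tget (s * d) cd i = tget (s * d) cd j from h3] at this; omega

/-- product of coded matrices (columns of the second matrix) equals the third: `m * (columns)`. `B` has the rows `b`. -/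
theorem Cod.mulMat (C : Cod s A M q dec) (e : ι ≃ Fin d) {m b c : ℕ}
    (h : ∀ j < d, ∀ i < d, dec (dotc s A M (tget (s * d) m i) (tbuild s (fun k => tget s (tget (s * d) b k) j) d) d 0) =
      dec (tget s (tget (s * d) c i) j)) : mc s dec e m * mc s dec e b = mc s dec e c := by
  ext i j
  rw [Matrix.mul_apply]
  have h1 := h (e j) (e j).2 (e i) (e i).2
  rw [(C.dot _ _ d 0 (by positivity)).2, C.zero, zero_add] at h1
  show ∑ k, dec (tget s (tget (s * d) m (e i)) (e k)) * dec (tget s (tget (s * d) b (e k)) (e j)) =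
    dec (tget s (tget (s * d) c (e i)) (e j))
  rw [← h1, sum_code e (fun k => dec (tget s (tget (s * d) m (e i)) k) * dec (tget s (tget (s * d) b k) (e j)))]
  apply Finset.sum_congr rfl
  intro k hk
  rw [tget_tbuild s _ d (fun i _ => tget_lt _ _ _) k (Finset.mem_range.1 hk)]

/-- product test of coded matrices -/
noncomputable def mulB (s A M d m b c : ℕ) : Bool :=
  nall (fun j => fc (tbuild s (fun k => tget s (tget (Nat.mul s d) b k) j) d) (fun col =>
    nall (fun i => Nat.beq (dotc s A M (tget (Nat.mul s d) m i) col d 0) (tget s (tget (Nat.mul s d) c i) j)) d)) d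

theorem Cod.mul_eq (C : Cod s A M q dec) (e : ι ≃ Fin d) {m b c : ℕ} (h : mulB s A M d m b c = true) :
    mc s dec e m * mc s dec e b = mc s dec e c := by
  apply C.mulMat
  intro j hj i hi
  have h1 := (nall_iff _ _).1 h j hj
  rw [fc_eq, nall_iff] at h1
  exact congrArg dec (Nat.eq_of_beq_eq_true (h1 i hi))

/-- code of the identity matrix -/
noncomputable def idB (s d m : ℕ) : Bool :=
  nall (fun i => nall (fun j => Nat.beq (tget s (tget (Nat.mul s d) m i) j)
    (Bool.rec 0 1 (Nat.beq i j))) d) d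

theorem Cod.id_eq (C : Cod s A M q dec) (e : ι ≃ Fin d) {m : ℕ} (h : idB s d m = true) :
    mc s dec e m = 1 := by
  ext i j
  have h1 := (nall_iff _ _).1 ((nall_iff _ _).1 h (e i) (e i).2) (e j) (e j).2
  have h2 := Nat.eq_of_beq_eq_true h1
  show dec (tget s (tget (s * d) m (e i)) (e j)) = _
  rw [Matrix.one_apply]
  have h3 : tget s (tget (s * d) m (e i)) (e j) = (Bool.rec 0 1 (Nat.beq (e i) (e j)) : ℕ) := h2
  rw [h3]
  by_cases hij : i = j
  · subst hij
    rw [Nat.beq_refl, if_pos rfl, ← C.one]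
  · have : Nat.beq (e i) (e j) = false := by
      by_contra hc
      rw [Bool.not_eq_false] at hc
      exact hij (e.injective (Fin.ext (Nat.eq_of_beq_eq_true hc)))
    rw [this, if_neg hij, ← C.zero]

end

section Frame

variable {F : Type*} [Field F] {ι : Type*} [Fintype ι] [DecidableEq ι]

/-- a matrix which has the columns of an invertible matrix and a vector with nonzero coordinates in this basis as
eigenvectors is scalar -/
theorem scalar_of_frame {X B B' : Matrix ι ι F} (hB : B' * B = 1) (hb : ∀ j, ∃ c : F, X *ᵥ (fun i => B i j) = c • fun i => B i j)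
    {u t : ι → F} (hu : B *ᵥ t = u) (ht : ∀ j, t j ≠ 0) (h : ∃ c : F, X *ᵥ u = c • u) :
    ∃ c : F, X = c • (1 : Matrix ι ι F) := by
  choose c hc using hb
  obtain ⟨c0, hc0⟩ := h
  have hB' : B * B' = 1 := mul_eq_one_comm.1 hB
  have h1 : X * B = B * Matrix.diagonal c := by
    ext i j
    have := congrFun (hc j) i
    rw [Matrix.mul_diagonal, Matrix.mul_apply]
    rw [Matrix.mulVec, dotProduct, Pi.smul_apply, smul_eq_mul] at this
    rw [this, mul_comm]
  have h2 : Matrix.diagonal c *ᵥ t = c0 • t := by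
    have h3 : X *ᵥ u = B *ᵥ (Matrix.diagonal c *ᵥ t) := by
      rw [← hu, Matrix.mulVec_mulVec, h1, ← Matrix.mulVec_mulVec]
    rw [hc0, ← hu, ← Matrix.mulVec_smul] at h3
    have h4 : ∀ z : ι → F, B' *ᵥ (B *ᵥ z) = z := by
      intro z
      rw [Matrix.mulVec_mulVec, hB, Matrix.one_mulVec]
    rw [← h4 (Matrix.diagonal c *ᵥ t), ← h3, h4]
  have h3 : ∀ j, c j = c0 := by
    intro j
    have := congrFun h2 j
    rw [Matrix.mulVec_diagonal, Pi.smul_apply, smul_eq_mul] at this
    exact mul_right_cancel₀ (ht j) this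
  refine ⟨c0, ?_⟩
  have h4 : Matrix.diagonal c = c0 • (1 : Matrix ι ι F) := by
    ext i j
    rw [Matrix.diagonal_apply, Matrix.smul_apply, Matrix.one_apply]
    by_cases hij : i = j
    · rw [if_pos hij, if_pos hij, h3, smul_eq_mul, mul_one]
    · rw [if_neg hij, if_neg hij, smul_zero]
  calc X = X * (B * B') := by rw [hB', mul_one]
    _ = B * Matrix.diagonal c * B' := by rw [← mul_assoc, h1]
    _ = c0 • (1 : Matrix ι ι F) := by
      rw [h4, Matrix.mul_smul, mul_one, Matrix.smul_mul, hB']

end Frame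

end Cfsg.Agent.MLin
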