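import Cfsg.Agent.MLin.Vec

/-!
More relations in the covering group: exact relators from commutators, representations by linear groups (owner: helper7).
-/
set_option autoImplicit false
set_option linter.unusedSectionVars false

namespace Cfsg.Agent.MLin

open Cfsg.Agent.CosetEnum Cfsg.Agent.PermTab Cfsg.Agent.MulX Subgroup Matrix

/-- If `t` commutes with `u` and `v` modulo the centre and `s` is the commutator of `u` and `v` modulo the centre, then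
`t` commutes with `s`. -/
theorem comm_of_comm {H : Type*} [Group H] {t u v s : H} (h1 : ∀ y, t * u * t⁻¹ * u⁻¹ * y = y * (t * u * t⁻¹ * u⁻¹))
    (h2 : ∀ y, t * v * t⁻¹ * v⁻¹ * y = y * (t * v * t⁻¹ * v⁻¹))
    (h3 : ∀ y, u * v * u⁻¹ * v⁻¹ * s⁻¹ * y = y * (u * v * u⁻¹ * v⁻¹ * s⁻¹)) : t * s * t⁻¹ * s⁻¹ = 1 := by
  obtain ⟨z1, hz1⟩ : ∃ z, z = t * u * t⁻¹ * u⁻¹ := ⟨_, rfl⟩
  obtain ⟨z2, hz2⟩ : ∃ z, z = t * v * t⁻¹ * v⁻¹ := ⟨_, rfl⟩
  obtain ⟨z3, hz3⟩ : ∃ z, z = u * v * u⁻¹ * v⁻¹ * s⁻¹ := ⟨_, rfl⟩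
  rw [← hz1] at h1
  rw [← hz2] at h2
  rw [← hz3] at h3
  have e1 : t * u * t⁻¹ = z1 * u := by rw [hz1]; group
  have e2 : t * v * t⁻¹ = z2 * v := by rw [hz2]; group
  have e3 : u * v * u⁻¹ * v⁻¹ = z3 * s := by rw [hz3]; group
  have i1 : ∀ y, z1⁻¹ * y = y * z1⁻¹ := fun y => by
    rw [inv_mul_eq_iff_eq_mul, ← mul_assoc, h1 y, mul_inv_cancel_right]
  have i2 : ∀ y, z2⁻¹ * y = y * z2⁻¹ := fun y => by
    rw [inv_mul_eq_iff_eq_mul, ← mul_assoc, h2 y, mul_inv_cancel_right]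
  have e4 : t * (u * v * u⁻¹ * v⁻¹) * t⁻¹ = u * v * u⁻¹ * v⁻¹ := by
    calc t * (u * v * u⁻¹ * v⁻¹) * t⁻¹ = (t * u * t⁻¹) * (t * v * t⁻¹) * (t * u * t⁻¹)⁻¹ * (t * v * t⁻¹)⁻¹ := by group
      _ = (z1 * u) * (z2 * v) * (u⁻¹ * z1⁻¹) * (v⁻¹ * z2⁻¹) := by rw [e1, e2, _root_.mul_inv_rev, _root_.mul_inv_rev]
      _ = (z1 * u) * (z2 * v) * (z1⁻¹ * u⁻¹) * (z2⁻¹ * v⁻¹) := by rw [i1, i2]
      _ = z1 * (u * (z2 * (v * (z1⁻¹ * (u⁻¹ * (z2⁻¹ * v⁻¹)))))) := by simp only [mul_assoc]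
      _ = z1 * (u * (z2 * (v * (u⁻¹ * (z2⁻¹ * v⁻¹) * z1⁻¹)))) := by rw [i1]
      _ = z1 * (u * (z2 * (v * (u⁻¹ * (v⁻¹ * z2⁻¹) * z1⁻¹)))) := by rw [i2]
      _ = z1 * ((u * (z2 * (v * (u⁻¹ * (v⁻¹ * z2⁻¹))))) * z1⁻¹) := by simp only [mul_assoc]
      _ = (u * (z2 * (v * (u⁻¹ * (v⁻¹ * z2⁻¹))))) := by rw [← mul_assoc, h1, mul_inv_cancel_right]
      _ = u * ((z2 * (v * u⁻¹ * v⁻¹)) * z2⁻¹) := by simp only [mul_assoc]
      _ = u * (v * u⁻¹ * v⁻¹) := by rw [h2, mul_inv_cancel_right]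
      _ = u * v * u⁻¹ * v⁻¹ := by simp only [mul_assoc]
  rw [e3] at e4
  have e5 : t * (z3 * s) * t⁻¹ = z3 * (t * s * t⁻¹) := by
    rw [← mul_assoc t, ← h3 t]; simp only [mul_assoc]
  rw [e5] at e4
  rw [mul_left_cancel e4, mul_inv_cancel]

/-- additional exact relators -/
theorem good_ext {H : Type*} [Group H] {g : ℕ → H} {ng : ℕ} {l : List (ℕ × ℕ)} {RL : List (List ℕ × ℕ)}
    (h : Good g ng l RL) {E : List (List ℕ)} (hE : ∀ w ∈ E, (w.map g).prod = 1) :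
    Good g ng l (RL ++ E.map fun w => (w, 1)) := by
  refine ⟨h.inv, h.one, ?_⟩
  intro p hp
  rcases List.mem_append.1 hp with hp | hp
  · exact h.rel p hp
  · obtain ⟨w, hw, rfl⟩ := List.mem_map.1 hp
    rw [pow_one]
    exact hE w hw

section

variable {s A M q d : ℕ} {F : Type*} [Field F] {dec : ℕ → F} {ι : Type*} [Fintype ι] [DecidableEq ι]
  {S : Type*} [Group S] {w n idt k cd : ℕ} {gt gi : ℕ → ℕ}

theorem center_words (C : Cod s A M q dec) (hq : q ≤ 2 ^ s) (e : ι ≃ Fin d) {μ : S →* Matrix ι ι F}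
    (hμ : Function.Injective μ)
    {h : ℕ → S} {Mt : ℕ → ℕ} (hM : ∀ i < k, μ (h i) = mc s dec e (Mt i))
    (hn : n ≤ 2 ^ w) (hid : idt = tid w n) (hg : gensB w n idt k gt gi = true)
    (hact : ∀ i < k, actB s A M q d (Mt i) w (gt i) cd n = true)
    {fr : List ℕ} {l Bm Bi Id t : ℕ} (hf : frameB s A M q d cd fr l Bm Bi Id t = true) (hlen : d ≤ fr.length)
    (hfr : ∀ x ∈ fr, x < n) (hl : l ∈ fr) {us : List (List ℕ)} (hR : frB w (tfm gt gi idt k) fr us = true)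
    (u : List ℕ) (hu : u ∈ us) : (u.map (fam h k)).prod ∈ center S ∧
      ∃ c : F, μ (u.map (fam h k)).prod = c • (1 : Matrix ι ι F) := by
  have hval := tfm_valid hn hid hg
  have hm := fam_mem hn hid hg (gen_mem C hq e hM hg hact)
  obtain ⟨σ, h1, h2⟩ := word_spec hval hm u
  have hfix : ∀ i : Fin n, (i : ℕ) ∈ fr → σ i = i := by
    intro i hi
    apply Fin.ext
    rw [h2]
    exact Nat.eq_of_beq_eq_true ((lall_iff _ _).1 ((lall_iff _ _).1 hR u hu) _ hi)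
  exact ⟨proj_center C e hμ hf hlen hfr hl _ σ h1 hfix, proj_scalar C e hf hlen hfr hl _ σ h1 hfix⟩

/-- value of a scalar word from one vector -/
theorem scalar_word (C : Cod s A M q dec) (e : ι ≃ Fin d) {μ : S →* Matrix ι ι F}
    {h : ℕ → S} {Mt Mi : ℕ → ℕ} {Id : ℕ} (hM : ∀ i < k, μ (h i) = mc s dec e (Mt i))
    (hI : ∀ i < k, mulB s A M d (Mi i) (Mt i) Id = true) (h3 : idB s d Id = true) {v j : ℕ} (hj : j < d)
    (hv1 : tget s v j = 1) {u : List ℕ} (hu : u.all (isLet (2 * k)) = true)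
    (hc : ∃ c : F, μ (u.map (fam h k)).prod = c • (1 : Matrix ι ι F)) :
    μ (u.map (fam h k)).prod = dec (tget s (wvc s A M d (mfm Mt Mi) u v) j) • (1 : Matrix ι ι F) := by
  obtain ⟨c, hc⟩ := hc
  have h5 := wvc_spec C e hM hI h3 v u hu
  rw [hc, Matrix.smul_mulVec, Matrix.one_mulVec] at h5
  have h6 := congrFun h5 (e.symm ⟨j, hj⟩)
  have h7 : ∀ x : ℕ, vc s dec e x (e.symm ⟨j, hj⟩) = dec (tget s x j) := by
    intro x
    show dec (tget s x (e (e.symm ⟨j, hj⟩))) = _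
    rw [Equiv.apply_symm_apply]
  rw [Pi.smul_apply, h7, h7, hv1, C.one, smul_eq_mul, mul_one] at h6
  rw [hc, h6]

end

end Cfsg.Agent.MLin
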