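import Cfsg.Agent.MLin.Exact

/-!
Exact relators of the covering group from commutators of words (owner: helper7).
-/
set_option autoImplicit false

namespace Cfsg.Agent.MLin

open Cfsg.Agent.CosetEnum Cfsg.Agent.MulX Subgroup

/-- element of a word -/
def wd {H : Type*} [Group H] (g : ℕ → H) (w : List ℕ) : H := (w.map g).prod

theorem wd_append {H : Type*} [Group H] (g : ℕ → H) (u v : List ℕ) : wd g (u ++ v) = wd g u * wd g v := by
  unfold wd; rw [List.map_append, List.prod_append]

/-- `[t, u]`, `[t, v]`, `[u, v] s⁻¹` are central words -/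
def cmB (l : List (ℕ × ℕ)) (R2 : List (List ℕ)) (t u v s : List ℕ) : Bool :=
  R2.contains (red l (t ++ (u ++ (invW l t ++ invW l u)))) && R2.contains (red l (t ++ (v ++ (invW l t ++ invW l v)))) &&
    R2.contains (red l (u ++ (v ++ (invW l u ++ (invW l v ++ invW l s)))))

/-- the word of a commutator -/
def cmWd (l : List (ℕ × ℕ)) (t s : List ℕ) : List ℕ := red l (t ++ (s ++ (invW l t ++ invW l s)))

section

variable {H : Type*} [Group H] {g : ℕ → H} {l : List (ℕ × ℕ)} {R2 : List (List ℕ)}
  (hinv : ∀ x, g (ivL l x) = (g x)⁻¹) (hcen : ∀ w ∈ R2, ∀ y, wd g w * y = y * wd g w)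

include hinv

theorem wd_red (w : List ℕ) : wd g (red l w) = wd g w := red_prod hinv w

theorem wd_inv (w : List ℕ) : wd g (invW l w) = (wd g w)⁻¹ := invW_prod hinv w

theorem wd_cm (t s : List ℕ) : wd g (cmWd l t s) = wd g t * wd g s * (wd g t)⁻¹ * (wd g s)⁻¹ := by
  unfold cmWd
  rw [wd_red hinv, wd_append, wd_append, wd_append, wd_inv hinv, wd_inv hinv]
  group

theorem cm_eq_one {t s : List ℕ} (h : Commute (wd g t) (wd g s)) : wd g (cmWd l t s) = 1 := by
  rw [wd_cm hinv, h.eq]
  group

include hcen

/-- commuting words -/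
theorem comm_words {t u v s : List ℕ} (h : cmB l R2 t u v s = true) : Commute (wd g t) (wd g s) := by
  unfold cmB at h
  simp only [Bool.and_eq_true, List.contains_iff_mem] at h
  obtain ⟨⟨h1, h2⟩, h3⟩ := h
  have key := comm_of_comm (t := wd g t) (u := wd g u) (v := wd g v) (s := wd g s)
    (by
      have e : wd g t * wd g u * (wd g t)⁻¹ * (wd g u)⁻¹ = wd g (red l (t ++ (u ++ (invW l t ++ invW l u)))) := by
        rw [wd_red hinv, wd_append, wd_append, wd_append, wd_inv hinv, wd_inv hinv]; group
      rw [e]; exact hcen _ h1)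
    (by
      have e : wd g t * wd g v * (wd g t)⁻¹ * (wd g v)⁻¹ = wd g (red l (t ++ (v ++ (invW l t ++ invW l v)))) := by
        rw [wd_red hinv, wd_append, wd_append, wd_append, wd_inv hinv, wd_inv hinv]; group
      rw [e]; exact hcen _ h2)
    (by
      have e : wd g u * wd g v * (wd g u)⁻¹ * (wd g v)⁻¹ * (wd g s)⁻¹ =
          wd g (red l (u ++ (v ++ (invW l u ++ (invW l v ++ invW l s))))) := by
        rw [wd_red hinv, wd_append, wd_append, wd_append, wd_append, wd_inv hinv, wd_inv hinv, wd_inv hinv]; group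
      rw [e]; exact hcen _ h3)
  rw [mul_inv_eq_one, mul_inv_eq_iff_eq_mul] at key
  exact key

/-- roots commute -/
theorem comm_root {e s : List ℕ} {n : ℕ} (h : R2.contains (red l ((List.replicate n e).flatten ++ invW l s)) = true) :
    Commute (wd g e) (wd g s) := by
  rw [List.contains_iff_mem] at h
  have h1 := hcen _ h
  rw [wd_red hinv, wd_append, wd_inv hinv] at h1
  have h2 : wd g (List.replicate n e).flatten = wd g e ^ n := by
    clear h h1
    induction n with
    | zero => simp [wd]
    | succ n ih => rw [List.replicate_succ, List.flatten_cons, wd_append, ih, pow_succ']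
  rw [h2] at h1
  have h3 := h1 (wd g e)
  have h4 : Commute (wd g e) (wd g e ^ n * (wd g s)⁻¹) := h3.symm
  have h5 : Commute (wd g e) ((wd g e ^ n)⁻¹ * (wd g e ^ n * (wd g s)⁻¹)) :=
    ((Commute.refl (wd g e)).pow_right n).inv_right.mul_right h4
  rw [inv_mul_cancel_left] at h5
  rw [← inv_inv (wd g s)]
  exact h5.inv_right

/-- products commute -/
theorem comm_prod {t e i s : List ℕ} {n : ℕ} (h1 : Commute (wd g e) (wd g s)) (h2 : Commute (wd g i) (wd g s))
    (h : R2.contains (red l (t ++ ((List.replicate n s).flatten ++ (invW l i ++ invW l e)))) = true) :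
    Commute (wd g t) (wd g s) := by
  rw [List.contains_iff_mem] at h
  have h3 := hcen _ h
  rw [wd_red hinv, wd_append, wd_append, wd_append, wd_inv hinv, wd_inv hinv] at h3
  have h4 : wd g (List.replicate n s).flatten = wd g s ^ n := by
    clear h h3
    induction n with
    | zero => simp [wd]
    | succ n ih => rw [List.replicate_succ, List.flatten_cons, wd_append, ih, pow_succ']
  rw [h4] at h3
  obtain ⟨z, hz⟩ : ∃ z, z = wd g t * (wd g s ^ n * ((wd g i)⁻¹ * (wd g e)⁻¹)) := ⟨_, rfl⟩
  rw [← hz] at h3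
  have h5 : wd g t = z * (wd g e * wd g i * (wd g s ^ n)⁻¹) := by rw [hz]; group
  rw [h5]
  have h6 : Commute z (wd g s) := h3 _
  exact h6.mul_left ((h1.mul_left h2).mul_left ((Commute.refl (wd g s)).pow_left n).inv_left)

end

end Cfsg.Agent.MLin
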