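import Cfsg.Agent.MLin.Exact
import Cfsg.Agent.Leech.CrossStab

/-!
Coded lattice vectors and elements of `Co0` given by steps (owner: helper7).

A vector is coded by a number with 24 digits of 4 bits (offset 8).  A step is a pair: `(0, t)` is the coordinate permutation
with table `t`, `(1, m)` the sign change on the code word with mask `m`, any other pair the base involution `xiElt`.
-/
set_option autoImplicit false
set_option linter.unusedSectionVars false

namespace Cfsg.Agent.MLin.Lat

open Cfsg Cfsg.Agent Cfsg.Agent.Leech Cfsg.Agent.PermTab Cfsg.Agent.CosetEnum Cfsg.Agent.MulX Cfsg.Agent.MLin Subgroup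

/-- integer vector of a code -/
def ivv (c : ℕ) : GolayPt → ℤ := fun p => (tget 4 c (Golay.idx p) : ℤ) - 8

/-- digit `j` of the table of `rho0` -/
def rh (j : ℕ) : ℕ := rhoTab.getD j 0

/-- check of the base involution at the coordinate `j` -/
noncomputable def xiB (c c' j : ℕ) : Bool :=
  fc (Nat.add (tget 4 c (rh j)) (Nat.add (tget 4 c (rh (rh j))) (tget 4 c (rh (rh (rh j)))))) (fun S =>
    cond (Bool.or (Nat.beq j 5) (Bool.or (Nat.beq j 14) (Bool.or (Nat.beq j 17) (Nat.beq j 23))))
      (Nat.beq (Nat.add (Nat.mul 2 (tget 4 c' j)) (tget 4 c j)) S)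
      (Nat.beq (Nat.add (Nat.mul 2 (tget 4 c' j)) S) (Nat.add 32 (tget 4 c j))))

/-- check of the sign change at the coordinate `j` -/
noncomputable def flB (m c c' j : ℕ) : Bool :=
  cond (Nat.beq (Nat.mod (Nat.shiftRight m j) 2) 1) (Nat.beq (Nat.add (tget 4 c' j) (tget 4 c j)) 16)
    (Nat.beq (tget 4 c' j) (tget 4 c j))

/-- check of a step: it maps the vector with code `c` to the vector with code `c'` -/
noncomputable def stB (k t c c' : ℕ) : Bool :=
  nall (fun j => cond (Nat.beq k 0) (Nat.beq (tget 4 c' (Golay.papp t j)) (tget 4 c j))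
    (cond (Nat.beq k 1) (flB t c c' j) (xiB c c' j))) 24

/-- validity of a step -/
def okB (k t : ℕ) : Bool := cond (Nat.beq k 0) (Golay.validM24 t) (cond (Nat.beq k 1) (Golay.inCode t) true)

/-- the element maps the vector with code `c` to the vector with code `c'` -/
def Maps (g : Co0) (c c' : ℕ) : Prop :=
  ∀ x : leechLattice, (x : GolayPt → ℤ) = ivv c → ((g • x : leechLattice) : GolayPt → ℤ) = ivv c'

theorem Maps.one (c : ℕ) : Maps 1 c c := fun x hx => by rw [one_smul]; exact hx

theorem Maps.mul {g h : Co0} {c c' c'' : ℕ} (h1 : Maps h c c') (h2 : Maps g c' c'') : Maps (g * h) c c'' := fun x hx => by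
  rw [mul_smul]
  exact h2 _ (h1 x hx)

/-- the element of a step -/
def IsSt (k t : ℕ) (g : Co0) : Prop := ∀ c c', stB k t c c' = true → Maps g c c'

theorem xi_step : IsSt 2 0 xiElt := by
  intro c c' h x hx
  funext p
  have hj : Golay.idx p < 24 := Golay.idx_lt p
  have h1 := (nall_iff _ _).1 h _ hj
  have h1' : xiB c c' (Golay.idx p) = true := h1
  unfold xiB at h1'
  rw [fc_eq] at h1'
  have h2 := xiElt_apply x p
  rw [xi2_apply, hx] at h2
  have hr : ∀ q, Golay.idx (rho0 q) = rh (Golay.idx q) := by decide +kernel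
  simp only [ivv, hr] at h2
  obtain ⟨S, hS⟩ : ∃ S, S = Nat.add (tget 4 c (rh (Golay.idx p))) (Nat.add (tget 4 c (rh (rh (Golay.idx p))))
    (tget 4 c (rh (rh (rh (Golay.idx p)))))) := ⟨_, rfl⟩
  rw [← hS] at h1'
  have hS' : S = tget 4 c (rh (Golay.idx p)) + (tget 4 c (rh (rh (Golay.idx p))) + tget 4 c (rh (rh (rh (Golay.idx p))))) := hS
  show ((xiElt • x : leechLattice) : GolayPt → ℤ) p = (tget 4 c' (Golay.idx p) : ℤ) - 8
  unfold eps0 at h2
  by_cases he : Golay.idx p = 5 ∨ Golay.idx p = 14 ∨ Golay.idx p = 17 ∨ Golay.idx p = 23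
  · rw [if_pos he] at h2
    have hb : (Bool.or (Nat.beq (Golay.idx p) 5) (Bool.or (Nat.beq (Golay.idx p) 14)
        (Bool.or (Nat.beq (Golay.idx p) 17) (Nat.beq (Golay.idx p) 23)))) = true := by
      rcases he with he | he | he | he <;> rw [he] <;> rfl
    rw [hb] at h1'
    have h3 : 2 * tget 4 c' (Golay.idx p) + tget 4 c (Golay.idx p) = S := Nat.eq_of_beq_eq_true h1'
    omega
  · rw [if_neg he] at h2
    have hb : (Bool.or (Nat.beq (Golay.idx p) 5) (Bool.or (Nat.beq (Golay.idx p) 14)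
        (Bool.or (Nat.beq (Golay.idx p) 17) (Nat.beq (Golay.idx p) 23)))) = false := by
      rw [Bool.eq_false_iff]
      intro h4
      apply he
      have h5 : (Nat.beq (Golay.idx p) 5 || (Nat.beq (Golay.idx p) 14 ||
        (Nat.beq (Golay.idx p) 17 || Nat.beq (Golay.idx p) 23))) = true := h4
      simp only [Bool.or_eq_true] at h5
      rcases h5 with h5 | h5 | h5 | h5
      · exact Or.inl (Nat.eq_of_beq_eq_true h5)
      · exact Or.inr (Or.inl (Nat.eq_of_beq_eq_true h5))
      · exact Or.inr (Or.inr (Or.inl (Nat.eq_of_beq_eq_true h5)))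
      · exact Or.inr (Or.inr (Or.inr (Nat.eq_of_beq_eq_true h5)))
    rw [hb] at h1'
    have h3 : 2 * tget 4 c' (Golay.idx p) + S = 32 + tget 4 c (Golay.idx p) := Nat.eq_of_beq_eq_true h1'
    omega

theorem perm_step {t : ℕ} (ht : Golay.validM24 t = true) : ∃ g, IsSt 0 t g := by
  obtain ⟨σ, hσ, hT⟩ := Golay.exists_mem_M24 ht
  refine ⟨permElt σ hσ, fun c c' h x hx => ?_⟩
  funext p
  have hj : Golay.idx (σ.symm p) < 24 := Golay.idx_lt _
  have h1 := (nall_iff _ _).1 h _ hj
  have h2 : tget 4 c' (Golay.papp t (Golay.idx (σ.symm p))) = tget 4 c (Golay.idx (σ.symm p)) := Nat.eq_of_beq_eq_true h1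
  rw [← hT, Equiv.apply_symm_apply] at h2
  rw [permElt_apply, hx]
  show (tget 4 c (Golay.idx (σ.symm p)) : ℤ) - 8 = (tget 4 c' (Golay.idx p) : ℤ) - 8
  rw [h2]

theorem flip_step {m : ℕ} (hm : Golay.inCode m = true) : ∃ g, IsSt 1 m g := by
  have h1 := Golay.ofMask_mem_supports hm
  rw [supports_mem_iff] at h1
  refine ⟨flipElt _ h1, fun c c' h x hx => ?_⟩
  funext p
  have hj : Golay.idx p < 24 := Golay.idx_lt p
  have h2 : flB m c c' (Golay.idx p) = true := (nall_iff _ _).1 h _ hj
  rw [flipElt_apply, hx]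
  have hb : m.testBit (Golay.idx p) = Nat.beq (Nat.mod (Nat.shiftRight m (Golay.idx p)) 2) 1 := by
    have e : Nat.mod (Nat.shiftRight m (Golay.idx p)) 2 = (m >>> Golay.idx p) % 2 := rfl
    rw [e, ← Nat.and_one_is_mod]
    have h3 : m.testBit (Golay.idx p) = (m >>> Golay.idx p).testBit 0 := by simp [Nat.testBit_shiftRight]
    rw [h3, Nat.testBit_zero, Nat.and_one_is_mod]
    rcases Nat.mod_two_eq_zero_or_one (m >>> Golay.idx p) with h | h <;> rw [h] <;> rfl
  unfold flB at h2
  rw [← hb] at h2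
  show _ = (tget 4 c' (Golay.idx p) : ℤ) - 8
  by_cases ht : m.testBit (Golay.idx p) = true
  · rw [ht] at h2
    have h3 : tget 4 c' (Golay.idx p) + tget 4 c (Golay.idx p) = 16 := Nat.eq_of_beq_eq_true h2
    have h4 : lift (fun i => if i ∈ Golay.ofMask m then (1 : ZMod 2) else 0) p = 1 := by
      rw [lift_eq_one_iff]
      show (if p ∈ Golay.ofMask m then (1 : ZMod 2) else 0) ≠ 0
      rw [if_pos (Golay.mem_ofMask.2 ht)]
      decide
    rw [h4]
    show (1 - 2 * 1) * ((tget 4 c (Golay.idx p) : ℤ) - 8) = _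
    omega
  · rw [Bool.not_eq_true] at ht
    rw [ht] at h2
    have h3 : tget 4 c' (Golay.idx p) = tget 4 c (Golay.idx p) := Nat.eq_of_beq_eq_true h2
    have h4 : lift (fun i => if i ∈ Golay.ofMask m then (1 : ZMod 2) else 0) p = 0 := by
      rw [lift_eq_zero_iff]
      show (if p ∈ Golay.ofMask m then (1 : ZMod 2) else 0) = 0
      rw [if_neg]
      rw [Golay.mem_ofMask, ht]
      decide
    rw [h4]
    show (1 - 2 * 0) * ((tget 4 c (Golay.idx p) : ℤ) - 8) = _
    omega

theorem exists_step {k t : ℕ} (h : okB k t = true) : ∃ g, IsSt k t g := by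
  unfold okB at h
  match k, h with
  | 0, h => exact perm_step h
  | 1, h => exact flip_step h
  | k + 2, h => exact ⟨xiElt, fun c c' hc => xi_step c c' hc⟩

/-- check of a list of steps with intermediate arrays; the steps are applied from left to right; `n` vectors in each array,
96 bits per vector -/
noncomputable def runB (n : ℕ) (fin : ℕ → ℕ → Bool) : List ((ℕ × ℕ) × ℕ) → ℕ → Bool :=
  @List.rec ((ℕ × ℕ) × ℕ) (fun _ => ℕ → Bool) (fun A => nall (fun i => fin i (tget 96 A i)) n)
    (fun s _ ih A => Bool.and (okB s.1.1 s.1.2) (Bool.and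
      (nall (fun i => fc (tget 96 A i) (fun c => fc (tget 96 s.2 i) (fun c' => stB s.1.1 s.1.2 c c'))) n) (ih s.2)))

theorem run_spec {n : ℕ} {fin : ℕ → ℕ → Bool} : ∀ (L : List ((ℕ × ℕ) × ℕ)) (A : ℕ), runB n fin L A = true →
    ∃ g : Co0, ∀ i < n, ∃ c', fin i c' = true ∧ Maps g (tget 96 A i) c' := by
  intro L
  induction L with
  | nil => exact fun A h => ⟨1, fun i hi => ⟨_, (nall_iff _ _).1 h i hi, Maps.one _⟩⟩
  | cons s L ih =>
    intro A h
    have h' : (okB s.1.1 s.1.2 && (nall (fun i => fc (tget 96 A i) (fun c => fc (tget 96 s.2 i)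
      (fun c' => stB s.1.1 s.1.2 c c'))) n && runB n fin L s.2)) = true := h
    simp only [Bool.and_eq_true] at h'
    obtain ⟨h1, h2, h3⟩ := h'
    obtain ⟨g, hg⟩ := exists_step h1
    obtain ⟨k, hk⟩ := ih _ h3
    refine ⟨k * g, fun i hi => ?_⟩
    obtain ⟨c', h4, h5⟩ := hk i hi
    have h6 := (nall_iff _ _).1 h2 i hi
    rw [fc_eq, fc_eq] at h6
    exact ⟨c', h4, (hg _ _ h6).mul h5⟩

/-- final test: the first `n` vectors are permuted by the table `t`, the others are fixed -/
noncomputable def finB (w n t A i c : ℕ) : Bool :=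
  Nat.beq c (cond (Nat.blt i n) (tget 96 A (tget w t i)) (tget 96 A i))

/-- the letter given by the steps `L` acts on the first `n` vectors of the array `A` by the table `t` and fixes the others -/
noncomputable def letB' (w n r t A : ℕ) (L : List ((ℕ × ℕ) × ℕ)) : Bool := runB (n + r) (finB w n t A) L A

theorem exists_letter {w n r t A : ℕ} {L : List ((ℕ × ℕ) × ℕ)} (h : letB' w n r t A L = true) :
    ∃ g : Co0, (∀ i < n, Maps g (tget 96 A i) (tget 96 A (tget w t i))) ∧
      ∀ j < r, Maps g (tget 96 A (n + j)) (tget 96 A (n + j)) := by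
  obtain ⟨g, hg⟩ := run_spec L A h
  refine ⟨g, fun i hi => ?_, fun j hj => ?_⟩
  · obtain ⟨c', h1, h2⟩ := hg i (by omega)
    have h3 : c' = cond (Nat.blt i n) (tget 96 A (tget w t i)) (tget 96 A i) := Nat.eq_of_beq_eq_true h1
    have h4 : Nat.blt i n = true := Nat.ble_eq_true_of_le hi
    rw [h4] at h3
    rw [h3] at h2
    exact h2
  · obtain ⟨c', h1, h2⟩ := hg (n + j) (by omega)
    have h3 : c' = cond (Nat.blt (n + j) n) (tget 96 A (tget w t (n + j))) (tget 96 A (n + j)) := Nat.eq_of_beq_eq_true h1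
    have h4 : Nat.blt (n + j) n = false := by
      rw [Bool.eq_false_iff]
      intro h5
      have := Nat.le_of_ble_eq_true h5
      omega
    rw [h4] at h3
    rw [h3] at h2
    exact h2

/-- the vector of a code in the lattice -/
def Pt (A i : ℕ) (x : leechLattice) : Prop := (x : GolayPt → ℤ) = ivv (tget 96 A i)

theorem exists_pt {A n : ℕ} (h : ∀ i < n, leechTest (ivv (tget 96 A i)) = true) :
    ∃ pt : Fin n → leechLattice, ∀ i : Fin n, Pt A i (pt i) :=
  ⟨fun i => ⟨ivv (tget 96 A i), mem_of_test (h i i.2)⟩, fun _ => rfl⟩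

end Cfsg.Agent.MLin.Lat
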