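import Cfsg.Agent.MLin.Lat
import Cfsg.Agent.MLin.ExactW

/-!
Groups of lattice automorphisms acting on coded vectors: central presentations (owner: helper7).
-/
set_option autoImplicit false
set_option linter.unusedSectionVars false

namespace Cfsg.Agent.MLin.Lat

open Cfsg Cfsg.Agent Cfsg.Agent.Leech Cfsg.Agent.PermTab Cfsg.Agent.CosetEnum Cfsg.Agent.MulX Cfsg.Agent.MLin Subgroup

theorem ivv_inj {a b : ℕ} (ha : a < 2 ^ 96) (hb : b < 2 ^ 96) (h : ivv a = ivv b) : a = b := by
  apply code_ext (s := 4) (d := 24) (by norm_num) (by simpa using ha) (by simpa using hb)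
  intro j hj
  have h1 := congrFun h (Golay.pt j)
  unfold ivv at h1
  rw [Golay.idx_pt hj] at h1
  omega

theorem inc_lt {A n : ℕ} (h : nall (fun i => Nat.blt (tget 96 A i) (tget 96 A (Nat.succ i))) n = true) :
    ∀ i j : ℕ, i < j → j ≤ n → tget 96 A i < tget 96 A j := by
  intro i j hij
  induction hij with
  | refl =>
    intro hn
    exact Nat.lt_of_succ_le (Nat.le_of_ble_eq_true ((nall_iff _ _).1 h i hn))
  | step hm ih =>
    intro hn
    refine (ih (by omega)).trans ?_
    exact Nat.lt_of_succ_le (Nat.le_of_ble_eq_true ((nall_iff _ _).1 h _ hn))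

section

variable {w n r k A idt : ℕ} {gt gi : ℕ → ℕ} {S : Subgroup Co0} {pt : Fin n → leechLattice}

/-- the vectors are distinct -/
theorem pt_inj (hpt : ∀ i : Fin n, Pt A i (pt i)) {m : ℕ} (hm : n ≤ m + 1)
    (h : nall (fun i => Nat.blt (tget 96 A i) (tget 96 A (Nat.succ i))) m = true) : Function.Injective pt := by
  have key : ∀ i j : Fin n, (i : ℕ) < j → pt i ≠ pt j := by
    intro i j hij he
    have h1 := inc_lt h i j hij (by omega)
    have h2 := hpt i
    have h3 := hpt j
    unfold Pt at h2 h3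
    rw [he] at h2
    have h4 := ivv_inj (tget_lt _ _ _) (tget_lt _ _ _) (h2.symm.trans h3)
    omega
  intro i j he
  by_contra hne
  rcases lt_or_gt_of_ne (fun h => hne (Fin.ext h) : (i : ℕ) ≠ j) with h1 | h1
  · exact key i j h1 he
  · exact key j i h1 he.symm

/-- letters in the subgroup `S` -/
theorem exists_letters (hS : ∀ g : Co0, (∀ j < r, Maps g (tget 96 A (n + j)) (tget 96 A (n + j))) → g ∈ S)
    {L : ℕ → List ((ℕ × ℕ) × ℕ)} (hL : ∀ i < k, letB' w n r (gt i) A (L i) = true) :
    ∃ h : ℕ → S, ∀ i < k, ∀ j < n, Maps (h i : Co0) (tget 96 A j) (tget 96 A (tget w (gt i) j)) := by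
  have h1 : ∀ i : ℕ, ∃ g : S, i < k → ∀ j < n, Maps (g : Co0) (tget 96 A j) (tget 96 A (tget w (gt i) j)) := by
    intro i
    by_cases hi : i < k
    · obtain ⟨g, hg1, hg2⟩ := exists_letter (hL i hi)
      exact ⟨⟨g, hS g hg2⟩, fun _ => hg1⟩
    · exact ⟨1, fun h => absurd h hi⟩
  choose h hh using h1
  exact ⟨h, hh⟩

/-- membership in the correspondence -/
theorem letter_mem (hpt : ∀ i : Fin n, Pt A i (pt i)) {t : ℕ} (ht : tvalid w n t = true) {g : S}
    (hg : ∀ j < n, Maps (g : Co0) (tget 96 A j) (tget 96 A (tget w t j))) :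
    (g, toPerm w n t) ∈ actD S pt := by
  intro i
  apply Subtype.ext
  have h1 := hg i i.2 (pt i) (hpt i)
  have h2 := hpt (toPerm w n t i)
  unfold Pt at h2
  rw [toPerm_apply ht] at h2
  exact h1.trans h2.symm

/-- **The central presentation** -/
theorem cp_lat [Finite S] (hn : n ≤ 2 ^ w) (hid : idt = tid w n) (hg : gensB w n idt k gt gi = true)
    (hpt : ∀ i : Fin n, Pt A i (pt i)) (hinj : Function.Injective pt) {h : ℕ → S}
    (hh : ∀ i < k, ∀ j < n, Maps (h i : Co0) (tget 96 A j) (tget 96 A (tget w (gt i) j)))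
    {fr : List ℕ} (hfr : ∀ a : S, (∀ i : Fin n, (i : ℕ) ∈ fr → a • pt i = pt i) → a = 1)
    {iv : List (ℕ × ℕ)} {R1 : List (ℕ × List ℕ)} {R2 : List (List ℕ)} {RL : List (List ℕ × ℕ)}
    (hlet : letB (2 * k) iv = true) (hP : pairB k iv = true) (htri : triB (2 * k) iv R1 = true)
    (hrel : relB iv (2 * k) R1 R2 RL = true)
    (hcov : (List.range (2 * k + 1)).all (fun x => !isLet (2 * k) x || (R1.any fun q => q.1 == x || ivL iv q.1 == x)) = true)
    (hR1 : frB w (tfm gt gi idt k) fr (R1.map Prod.snd) = true) (hR2 : frB w (tfm gt gi idt k) fr R2 = true)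
    {L : List (ℕ × List (List ℕ))} (hL : chB w n (tfm gt gi idt k) (2 * k) L [] = true) (hc : Nat.card S ≤ chCard L) :
    CP (fam h k) (2 * k) iv R1 R2 RL := by
  have hval := tfm_valid hn hid hg
  have hD : ∀ i < k, (h i, toPerm w n (gt i)) ∈ actD S pt := by
    intro i hi
    have h3 := (nall_iff _ _).1 hg i hi
    simp only [Bool.and_eq_true] at h3
    exact letter_mem hpt h3.1 (hh i hi)
  refine cp_of_frame (D := actD S pt) hval (fam_mem hn hid hg hD) ?_ ?_ hlet htri hrel hcov (fam_inv h hlet hP)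
    (fun y hy => fam_one h hy) hR1 hR2 hL hc
  · intro σ hσ
    ext i
    have h1 := hσ i
    rw [one_smul] at h1
    rw [← hinj h1]
    rfl
  · intro a σ ha hs
    apply hfr
    intro i hi
    have h1 := ha i
    rw [hs i hi] at h1
    exact h1

end

/-- additive subgroup of fixed vectors -/
def fixL (g : Co0) : AddSubgroup leechLattice where
  carrier := {x | g • x = x}
  zero_mem' := co0_zero g
  add_mem' := by
    intro x y hx hy
    show g • (x + y) = x + y
    rw [co0_add, show g • x = x from hx, show g • y = y from hy]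
  neg_mem' := by
    intro x hx
    show g • (-x) = -x
    rw [co0_neg, show g • x = x from hx]

theorem mem_fixL {g : Co0} {x : leechLattice} : x ∈ fixL g ↔ g • x = x := Iff.rfl

theorem smul_nsmul (g : Co0) (m : ℕ) (x : leechLattice) : g • (m • x) = m • (g • x) := by
  induction m with
  | zero => rw [zero_nsmul, zero_nsmul, co0_zero]
  | succ m ih => rw [succ_nsmul, succ_nsmul, co0_add, ih]

/-- divisibility -/
theorem fix_of_nsmul {g : Co0} {m : ℕ} (hm : m ≠ 0) {x : leechLattice} (h : m • x ∈ fixL g) : x ∈ fixL g := by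
  have h1 : g • (m • x) = m • x := h
  rw [smul_nsmul] at h1
  show g • x = x
  apply Subtype.ext
  funext p
  have h2 := congrArg (fun y : leechLattice => (y : GolayPt → ℤ) p) h1
  have e : ∀ y : leechLattice, ((m • y : leechLattice) : GolayPt → ℤ) p = (m : ℤ) * (y : GolayPt → ℤ) p := by
    intro y
    rw [AddSubgroup.coe_nsmul]
    simp
  simp only [e] at h2
  exact mul_left_cancel₀ (by exact_mod_cast hm) h2

end Cfsg.Agent.MLin.Lat
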