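import Cfsg.Agent.MLin.Code

/-!
Central presentations of central quotients of linear groups from codes (owner: helper7).

Letters: `2 * i + 1` is the generator `h i`, `2 * i + 2` its inverse (`i < k`).
-/
set_option autoImplicit false
set_option linter.unusedSectionVars false

namespace Cfsg.Agent.MLin

open Cfsg.Agent.CosetEnum Cfsg.Agent.PermTab Cfsg.Agent.MulX Subgroup Matrix

/-- family of letters from generators -/
def fam {S : Type*} [Group S] (h : ℕ → S) (k x : ℕ) : S :=
  if isLet (2 * k) x = true then (if x % 2 = 1 then h (x / 2) else (h (x / 2 - 1))⁻¹) else 1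

/-- family of tables from tables of generators and of their inverses -/
def tfm (gt gi : ℕ → ℕ) (idt k x : ℕ) : ℕ :=
  if isLet (2 * k) x = true then (if x % 2 = 1 then gt (x / 2) else gi (x / 2 - 1)) else idt

/-- the pairs are `(1, 2), (3, 4), …` -/
def pairB (k : ℕ) (iv : List (ℕ × ℕ)) : Bool :=
  (List.range (2 * k + 1)).all fun y => !isLet (2 * k) y ||
    (isLet (2 * k) (ivL iv y) &&
      (if y % 2 = 1 then (ivL iv y % 2 == 0 && ivL iv y / 2 - 1 == y / 2) else
        (ivL iv y % 2 == 1 && ivL iv y / 2 == y / 2 - 1)))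

theorem fam_inv {S : Type*} [Group S] (h : ℕ → S) {k : ℕ} {iv : List (ℕ × ℕ)} (hlet : letB (2 * k) iv = true)
    (hP : pairB k iv = true) (y : ℕ) : fam h k (ivL iv y) = (fam h k y)⁻¹ := by
  by_cases hy : isLet (2 * k) y = true
  · simp only [pairB, List.all_eq_true, List.mem_range, Bool.or_eq_true, Bool.not_eq_true', Bool.and_eq_true] at hP
    have h1 := hP y (by have := (isLet_iff.1 hy).2; omega)
    rw [hy] at h1
    simp only [Bool.true_eq_false, false_or] at h1
    obtain ⟨h2, h3⟩ := h1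
    unfold fam
    rw [if_pos h2, if_pos hy]
    by_cases hp : y % 2 = 1
    · rw [if_pos hp] at h3
      simp only [Bool.and_eq_true, beq_iff_eq] at h3
      rw [if_neg (by omega), if_pos hp, h3.2]
    · rw [if_neg hp] at h3
      simp only [Bool.and_eq_true, beq_iff_eq] at h3
      rw [if_pos h3.1, if_neg hp, h3.2, inv_inv]
  · have hy' : isLet (2 * k) y = false := by simpa using hy
    have h2 := letB_out hlet hy'
    unfold fam
    rw [if_neg (by simp [h2]), if_neg hy, inv_one]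

theorem fam_one {S : Type*} [Group S] (h : ℕ → S) {k y : ℕ} (hy : isLet (2 * k) y = false) : fam h k y = 1 := by
  unfold fam
  rw [if_neg (by simp [hy])]

theorem fam_map {S T : Type*} [Group S] [Group T] (φ : S →* T) (h : ℕ → S) (k y : ℕ) :
    φ (fam h k y) = fam (fun i => φ (h i)) k y := by
  unfold fam
  split_ifs
  · rfl
  · rw [map_inv]
  · rw [map_one]

/-- tests of the tables of the generators -/
noncomputable def gensB (w n idt k : ℕ) (gt gi : ℕ → ℕ) : Bool :=
  nall (fun i => Bool.and (tvalid w n (gt i)) (Bool.and (tvalid w n (gi i)) (Nat.beq (tmul w n (gt i) (gi i)) idt))) k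

/-- frame: `d` columns of the matrix `Bm` are the codes of the first `d` points of `fr`, `Bi` is the inverse, the last
point has nonzero coordinates `t` -/
noncomputable def frameB (s A M q d cd : ℕ) (fr : List ℕ) (l Bm Bi Id t : ℕ) : Bool :=
  Bool.and (nall (fun j => nall (fun i => Nat.beq (tget s (tget (Nat.mul s d) Bm i) j)
    (tget s (tget (Nat.mul s d) cd (fr.getD j 0)) i)) d) d)
  (Bool.and (mulB s A M d Bi Bm Id) (Bool.and (idB s d Id)
    (Bool.and (Nat.beq (mvc s A M d Bm t) (tget (Nat.mul s d) cd l))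
      (nall (fun j => Bool.and (Nat.blt 0 (tget s t j)) (Nat.blt (tget s t j) q)) d))))

section

variable {s A M q d : ℕ} {F : Type*} [Field F] {dec : ℕ → F} {ι : Type*} [Fintype ι] [DecidableEq ι]
  {S : Type*} [Group S] {w n idt k cd : ℕ} {gt gi : ℕ → ℕ}

/-- the points -/
def vpt (s : ℕ) (dec : ℕ → F) (e : ι ≃ Fin d) (cd n : ℕ) (i : Fin n) : ι → F := vc s dec e (tget (s * d) cd i)

theorem tfm_valid (hn : n ≤ 2 ^ w) (hid : idt = tid w n) (hg : gensB w n idt k gt gi = true) (x : ℕ) :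
    tvalid w n (tfm gt gi idt k x) = true := by
  unfold tfm
  split_ifs with h1 h2
  · have h3 := (nall_iff _ _).1 hg (x / 2) (by have := (isLet_iff.1 h1); omega)
    simp only [Bool.and_eq_true] at h3
    exact h3.1
  · have h3 := (nall_iff _ _).1 hg (x / 2 - 1) (by have := (isLet_iff.1 h1); omega)
    simp only [Bool.and_eq_true] at h3
    exact h3.2.1
  · rw [hid]; exact (toPerm_tid hn).1

theorem fam_mem {D : Subgroup (S × Equiv.Perm (Fin n))} (hn : n ≤ 2 ^ w) (hid : idt = tid w n)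
    (hg : gensB w n idt k gt gi = true) {h : ℕ → S} (hD : ∀ i < k, (h i, toPerm w n (gt i)) ∈ D) (x : ℕ) :
    (fam h k x, toPerm w n (tfm gt gi idt k x)) ∈ D := by
  unfold tfm fam
  split_ifs with h1 h2
  · exact hD _ (by have := (isLet_iff.1 h1); omega)
  · have hlt : x / 2 - 1 < k := by have := (isLet_iff.1 h1); omega
    have h3 := (nall_iff _ _).1 hg (x / 2 - 1) hlt
    simp only [Bool.and_eq_true] at h3
    have h4 : toPerm w n (gt (x / 2 - 1)) * toPerm w n (gi (x / 2 - 1)) = 1 := by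
      rw [← toPerm_tmul h3.1 h3.2.1, Nat.eq_of_beq_eq_true h3.2.2, hid]
      exact (toPerm_tid hn).2
    rw [← inv_eq_of_mul_eq_one_right h4]
    exact D.inv_mem (hD _ hlt)
  · rw [hid, (toPerm_tid hn).2]
    exact D.one_mem

theorem gen_mem (C : Cod s A M q dec) (hq : q ≤ 2 ^ s) (e : ι ≃ Fin d) {μ : S →* Matrix ι ι F} {h : ℕ → S} {Mt : ℕ → ℕ}
    (hM : ∀ i < k, μ (h i) = mc s dec e (Mt i)) (hg : gensB w n idt k gt gi = true)
    (hact : ∀ i < k, actB s A M q d (Mt i) w (gt i) cd n = true) (i : ℕ) (hi : i < k) :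
    (h i, toPerm w n (gt i)) ∈ projD μ (vpt s dec e cd n) := by
  rw [mem_projD]
  intro j
  obtain ⟨c, hc, h1⟩ := C.act hq e (hact i hi) j j.2
  refine ⟨c, hc, ?_⟩
  have h3 := (nall_iff _ _).1 hg i hi
  simp only [Bool.and_eq_true] at h3
  rw [hM i hi]
  show _ = c • vc s dec e (tget (s * d) cd (toPerm w n (gt i) j : Fin n))
  rw [toPerm_apply h3.1]
  exact h1

theorem proj_fn (C : Cod s A M q dec) (e : ι ≃ Fin d) {μ : S →* Matrix ι ι F} (hp : ptsB s q d cd n = true)
    (σ : Equiv.Perm (Fin n)) (h : ((1 : S), σ) ∈ projD μ (vpt s dec e cd n)) : σ = 1 := by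
  rw [mem_projD] at h
  ext i
  obtain ⟨c, hc, h1⟩ := h i
  rw [map_one, Matrix.one_mulVec] at h1
  have h2 := C.pts e hp i.2 (σ i).2 h1
  rw [← h2]; rfl

theorem proj_scalar (C : Cod s A M q dec) (e : ι ≃ Fin d) {μ : S →* Matrix ι ι F}
    {fr : List ℕ} {l Bm Bi Id t : ℕ} (hf : frameB s A M q d cd fr l Bm Bi Id t = true) (hlen : d ≤ fr.length)
    (hfr : ∀ x ∈ fr, x < n) (hl : l ∈ fr) (a : S) (σ : Equiv.Perm (Fin n)) (ha : (a, σ) ∈ projD μ (vpt s dec e cd n))
    (hfix : ∀ i : Fin n, (i : ℕ) ∈ fr → σ i = i) : ∃ c : F, μ a = c • (1 : Matrix ι ι F) := by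
  unfold frameB at hf
  simp only [Bool.and_eq_true] at hf
  obtain ⟨h1, h2, h3, h4, h5⟩ := hf
  rw [mem_projD] at ha
  have hfixv : ∀ i, i ∈ fr → ∃ c : F, μ a *ᵥ vc s dec e (tget (s * d) cd i) = c • vc s dec e (tget (s * d) cd i) := by
    intro i hi
    obtain ⟨c, -, hc⟩ := ha ⟨i, hfr i hi⟩
    rw [hfix _ hi] at hc
    exact ⟨c, hc⟩
  have h6 : mc s dec e Bi * mc s dec e Bm = 1 := by
    rw [C.mul_eq e h2]
    exact C.id_eq e h3
  apply scalar_of_frame (B := mc s dec e Bm) (B' := mc s dec e Bi) h6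
    (u := vc s dec e (tget (s * d) cd l)) (t := vc s dec e t)
  · intro j
    have hj : fr.getD (e j) 0 ∈ fr := by
      have h7 : (e j : ℕ) < fr.length := lt_of_lt_of_le (e j).2 hlen
      rw [List.getD_eq_getElem _ _ h7]
      exact List.getElem_mem _
    obtain ⟨c, hc⟩ := hfixv _ hj
    have h8 : (fun i => mc s dec e Bm i j) = vc s dec e (tget (s * d) cd (fr.getD (e j) 0)) := by
      funext i
      have h9 := (nall_iff _ _).1 ((nall_iff _ _).1 h1 (e j) (e j).2) (e i) (e i).2
      exact congrArg dec (Nat.eq_of_beq_eq_true h9)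
    rw [h8]
    exact ⟨c, hc⟩
  · rw [C.mulVec]
    congr 1
    exact Nat.eq_of_beq_eq_true h4
  · intro j h0
    have h9 := (nall_iff _ _).1 h5 (e j) (e j).2
    rw [Bool.and_eq_true] at h9
    have h10 : 0 < tget s t (e j) := Nat.lt_of_succ_le (Nat.le_of_ble_eq_true h9.1)
    have h11 : tget s t (e j) < q := Nat.lt_of_succ_le (Nat.le_of_ble_eq_true h9.2)
    have h12 : dec (tget s t (e j)) = dec 0 := by rw [C.zero]; exact h0
    have := C.inj _ h11 0 (by omega) h12
    omega
  · exact hfixv l hl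

theorem proj_center (C : Cod s A M q dec) (e : ι ≃ Fin d) {μ : S →* Matrix ι ι F} (hμ : Function.Injective μ)
    {fr : List ℕ} {l Bm Bi Id t : ℕ} (hf : frameB s A M q d cd fr l Bm Bi Id t = true) (hlen : d ≤ fr.length)
    (hfr : ∀ x ∈ fr, x < n) (hl : l ∈ fr) (a : S) (σ : Equiv.Perm (Fin n)) (ha : (a, σ) ∈ projD μ (vpt s dec e cd n))
    (hfix : ∀ i : Fin n, (i : ℕ) ∈ fr → σ i = i) : a ∈ center S :=
  mem_center_of_scalar hμ (proj_scalar C e hf hlen hfr hl a σ ha hfix)

/-- **Central presentation of `S / Z(S)`** for a linear group `S`. -/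
theorem cp_proj (C : Cod s A M q dec) (hq : q ≤ 2 ^ s) (e : ι ≃ Fin d) {μ : S →* Matrix ι ι F} (hμ : Function.Injective μ)
    {h : ℕ → S} {Mt : ℕ → ℕ} (hM : ∀ i < k, μ (h i) = mc s dec e (Mt i))
    (hn : n ≤ 2 ^ w) (hn0 : 0 < n) (hid : idt = tid w n) (hg : gensB w n idt k gt gi = true)
    (hact : ∀ i < k, actB s A M q d (Mt i) w (gt i) cd n = true) (hp : ptsB s q d cd n = true)
    {fr : List ℕ} {l Bm Bi Id t : ℕ} (hf : frameB s A M q d cd fr l Bm Bi Id t = true) (hlen : d ≤ fr.length)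
    (hfr : ∀ x ∈ fr, x < n) (hl : l ∈ fr)
    {ws : List (List ℕ)} {ts : List (List ℕ)} {L : List (ℕ × List (List ℕ))}
    (hws : mvB w n (tfm gt gi idt k) ws = true)
    (hL : chB w n (tfm gt gi idt k) (2 * k) ((0, ts) :: L) [] = true) (htl : ts.length = n)
    {iv : List (ℕ × ℕ)} {R1 : List (ℕ × List ℕ)} {R2 : List (List ℕ)} {RL : List (List ℕ × ℕ)}
    (hlet : letB (2 * k) iv = true) (hpair : pairB k iv = true) (htri : triB (2 * k) iv R1 = true)
    (hrel : relB iv (2 * k) R1 R2 RL = true)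
    (hcov : (List.range (2 * k + 1)).all (fun x => !isLet (2 * k) x || (R1.any fun q => q.1 == x || ivL iv q.1 == x)) = true)
    (hR1 : frB w (tfm gt gi idt k) fr (R1.map Prod.snd) = true) (hR2 : frB w (tfm gt gi idt k) fr R2 = true)
    [Finite (S ⧸ center S)] (hc : Nat.card (S ⧸ center S) ≤ chCard ((0, ts) :: L)) :
    CP (fun x => (QuotientGroup.mk' (center S)) (fam h k x)) (2 * k) iv R1 R2 RL := by
  have hv := tfm_valid hn hid hg
  have hm := fam_mem hn hid hg (gen_mem C hq e hM hg hact)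
  have hfn := proj_fn C e (μ := μ) hp
  have hts : incB w (tfm gt gi idt k) 0 ts 0 = true := by
    rw [chB_cons] at hL
    simp only [Bool.and_eq_true] at hL
    exact hL.2.2.1
  exact cp_of_frame (D := quotD (projD μ (vpt s dec e cd n))) hv (quot_mem hm)
    (fun σ hσ => quot_fn hv hm hfn hws hts htl hn0 σ hσ)
    (quot_fr (fun a σ ha hσ => proj_center C e hμ hf hlen hfr hl a σ ha hσ)) hlet htri hrel hcov
    (fun y => by rw [fam_inv h hlet hpair, map_inv]) (fun y hy => by rw [fam_one h hy, map_one]) hR1 hR2 hL hc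

end

end Cfsg.Agent.MLin
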