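import Cfsg.Agent.MLin.Fields
import Cfsg.Prelude.Def_Classical
import Cfsg.Prelude.Def_KGroupFacts

/-!
Coded elements of orthogonal groups (owner: helper7).
-/
set_option autoImplicit false
set_option linter.unusedSectionVars false

namespace Cfsg.Agent.MLin

open Cfsg.Agent.CosetEnum Cfsg.Agent.PermTab Cfsg.Agent.MulX Subgroup Matrix Cfsg

section

variable {F : Type*} [Field F] {ι : Type} [Fintype ι] [DecidableEq ι]

theorem qf_of_mat {U : Matrix ι ι F} {Q : (ι → F) → F} (hQ : ∀ v, Q v = v ⬝ᵥ (U *ᵥ v)) {M K : Matrix ι ι F}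
    (h : Mᵀ * U * M = U + (K - Kᵀ)) (v : ι → F) : Q (M *ᵥ v) = Q v := by
  rw [hQ, hQ]
  have h1 : (M *ᵥ v) ⬝ᵥ (U *ᵥ (M *ᵥ v)) = v ⬝ᵥ ((Mᵀ * U * M) *ᵥ v) := by
    rw [← Matrix.mulVec_mulVec, ← Matrix.mulVec_mulVec, Matrix.mulVec_transpose, dotProduct_comm v,
      ← Matrix.dotProduct_mulVec, dotProduct_comm]
  rw [h1, h, Matrix.add_mulVec, Matrix.sub_mulVec, dotProduct_add, dotProduct_sub]
  have h2 : v ⬝ᵥ (Kᵀ *ᵥ v) = v ⬝ᵥ (K *ᵥ v) := by
    rw [Matrix.mulVec_transpose, dotProduct_comm v, ← Matrix.dotProduct_mulVec]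
  rw [h2, sub_self, add_zero]

variable {s A Ml q d : ℕ} {dec : ℕ → F}

/-- invertible matrix from codes -/
noncomputable def mkGL (C : Cod s A Ml q dec) (e : ι ≃ Fin d) {m mi Id : ℕ} (h1 : mulB s A Ml d m mi Id = true)
    (h2 : mulB s A Ml d mi m Id = true) (h3 : idB s d Id = true) : GL ι F where
  val := mc s dec e m
  inv := mc s dec e mi
  val_inv := by rw [C.mul_eq e h1, C.id_eq e h3]
  inv_val := by rw [C.mul_eq e h2, C.id_eq e h3]

/-- the matrices of the elements of `Ω(Q)` -/
def omM (Q : (ι → F) → F) : Omega F Q →* Matrix ι ι F :=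
  ((Units.coeHom (Matrix ι ι F)).comp (isometryGroup F Q).subtype).comp (Omega F Q).subtype

theorem omM_inj (Q : (ι → F) → F) : Function.Injective (omM Q) := by
  intro a b h
  apply Subtype.ext
  apply Subtype.ext
  apply Units.ext
  exact h

/-- the matrices of the elements of the isometry group -/
def isM (Q : (ι → F) → F) : isometryGroup F Q →* Matrix ι ι F :=
  (Units.coeHom (Matrix ι ι F)).comp (isometryGroup F Q).subtype

theorem isM_inj (Q : (ι → F) → F) : Function.Injective (isM Q) := by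
  intro a b h
  apply Subtype.ext
  apply Units.ext
  exact h

/-- letters which satisfy a triangular system of exact relators lie in the commutator subgroup -/
theorem mem_commutator_of_tri {H : Type*} [Group H] {g : ℕ → H} {ng : ℕ} {l : List (ℕ × ℕ)} {R1 : List (ℕ × List ℕ)}
    (htri : triB ng l R1 = true)
    (hcov : (List.range (ng + 1)).all (fun x => !isLet ng x || (R1.any fun q => q.1 == x || ivL l q.1 == x)) = true)
    (hlet : letB ng l = true)
    (hi : ∀ y, g (ivL l y) = (g y)⁻¹) (hex : ∀ q ∈ R1, (q.2.map g).prod = 1) (h1 : ∀ y, isLet ng y = false → g y = 1)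
    (y : ℕ) : g y ∈ commutator H := by
  have h2 := tri_trivial hlet R1 htri (fun y => Abelianization.of (g y)) (fun y => by rw [hi, map_inv])
    (fun y hy => by rw [h1 y hy, map_one]) (fun q hq => by
      have := congrArg (Abelianization.of (G := H)) (hex q hq)
      rw [map_list_prod, List.map_map, map_one] at this
      exact this) (by
      intro y hy
      by_cases hyl : isLet ng y = true
      · exfalso
        rw [List.all_eq_true] at hcov
        have h3 := hcov y (by rw [List.mem_range]; have := isLet_iff.1 hyl; omega)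
        rw [hyl] at h3
        simp only [Bool.not_true, Bool.false_or, List.any_eq_true, Bool.or_eq_true, beq_iff_eq] at h3
        obtain ⟨q, hq, h4⟩ := h3
        rcases h4 with h4 | h4
        · exact (hy q hq).1 h4.symm
        · exact (hy q hq).2 h4.symm
      · rw [h1 y (by simpa using hyl), map_one])
  exact (QuotientGroup.eq_one_iff _).1 (h2 y)

end

section

variable {s A M q d : ℕ} {F : Type*} [Field F] {dec : ℕ → F} {ι : Type*} [Fintype ι] [DecidableEq ι]
  {S : Type*} [Group S] {w n idt k cd : ℕ} {gt gi : ℕ → ℕ}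

/-- Exact relators in a linear group without nontrivial scalars (or with scalars excluded by `hsc`). -/
theorem exact_words (C : Cod s A M q dec) (hq : q ≤ 2 ^ s) (e : ι ≃ Fin d) {μ : S →* Matrix ι ι F} (hμ : Function.Injective μ)
    {h : ℕ → S} {Mt : ℕ → ℕ} (hM : ∀ i < k, μ (h i) = mc s dec e (Mt i))
    (hn : n ≤ 2 ^ w) (hid : idt = tid w n) (hg : gensB w n idt k gt gi = true)
    (hact : ∀ i < k, actB s A M q d (Mt i) w (gt i) cd n = true)
    {fr : List ℕ} {l Bm Bi Id t : ℕ} (hf : frameB s A M q d cd fr l Bm Bi Id t = true) (hlen : d ≤ fr.length)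
    (hfr : ∀ x ∈ fr, x < n) (hl : l ∈ fr) {us : List (List ℕ)} (hR : frB w (tfm gt gi idt k) fr us = true)
    (hsc : ∀ a : S, a ∈ center S → (∃ c : F, μ a = c • (1 : Matrix ι ι F)) → a ∈ closure (Set.range h) → a = 1)
    (u : List ℕ) (hu : u ∈ us) : (u.map (fam h k)).prod = 1 := by
  have hv := tfm_valid hn hid hg
  have hm := fam_mem hn hid hg (gen_mem C hq e hM hg hact)
  obtain ⟨σ, h1, h2⟩ := word_spec hv hm u
  have hfix : ∀ i : Fin n, (i : ℕ) ∈ fr → σ i = i := by
    intro i hi
    apply Fin.ext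
    rw [h2]
    exact Nat.eq_of_beq_eq_true ((lall_iff _ _).1 ((lall_iff _ _).1 hR u hu) _ hi)
  have hcl : (u.map (fam h k)).prod ∈ closure (Set.range h) := by
    apply Subgroup.list_prod_mem
    intro x hx
    obtain ⟨y, _, rfl⟩ := List.mem_map.1 hx
    unfold fam
    split_ifs
    · exact subset_closure ⟨_, rfl⟩
    · exact inv_mem (subset_closure ⟨_, rfl⟩)
    · exact one_mem _
  exact hsc _ (proj_center C e hμ hf hlen hfr hl _ σ h1 hfix) (proj_scalar C e hf hlen hfr hl _ σ h1 hfix) hcl

end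

end Cfsg.Agent.MLin
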