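import Cfsg.Agent.MLin.Orth

/-!
Words acting on coded vectors, exact relators over arbitrary small fields (owner: helper7).
-/
set_option autoImplicit false
set_option linter.unusedSectionVars false

namespace Cfsg.Agent.MLin

open Cfsg.Agent.CosetEnum Cfsg.Agent.PermTab Cfsg.Agent.MulX Subgroup Matrix

/-- codes of the letters -/
def mfm (Mt Mi : ℕ → ℕ) (x : ℕ) : ℕ := if x % 2 = 1 then Mt (x / 2) else Mi (x / 2 - 1)

/-- word acting on a vector code -/
noncomputable def wvc (s A M d : ℕ) (fm : ℕ → ℕ) (u : List ℕ) (v : ℕ) : ℕ :=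
  @List.rec ℕ (fun _ => ℕ) v (fun x _ ih => fc ih (fun y => fc (fm x) (fun m => mvc s A M d m y))) u

theorem wvc_nil (s A M d : ℕ) (fm : ℕ → ℕ) (v : ℕ) : wvc s A M d fm [] v = v := rfl

theorem wvc_cons (s A M d : ℕ) (fm : ℕ → ℕ) (x : ℕ) (u : List ℕ) (v : ℕ) :
    wvc s A M d fm (x :: u) v = mvc s A M d (fm x) (wvc s A M d fm u v) := by
  have h : wvc s A M d fm (x :: u) v = fc (wvc s A M d fm u v) (fun y => fc (fm x) (fun m => mvc s A M d m y)) := rfl
  rw [h, fc_eq, fc_eq]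

/-- test of the words `us` on the vector `v` -/
noncomputable def wvB (s A M d k : ℕ) (fm : ℕ → ℕ) (us : List (List ℕ)) (v : ℕ) : Bool :=
  lall us (fun u => Bool.and (u.all (isLet (2 * k))) (Nat.beq (wvc s A M d fm u v) v))

section

variable {s A M q d : ℕ} {F : Type*} [Field F] {dec : ℕ → F} {ι : Type*} [Fintype ι] [DecidableEq ι]
  {S : Type*} [Group S] {w n idt k cd : ℕ} {gt gi : ℕ → ℕ}

theorem inv_code (C : Cod s A M q dec) (e : ι ≃ Fin d) {μ : S →* Matrix ι ι F} {a : S} {m mi Id : ℕ}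
    (hM : μ a = mc s dec e m) (h1 : mulB s A M d mi m Id = true) (h3 : idB s d Id = true) :
    μ a⁻¹ = mc s dec e mi := by
  have h4 : mc s dec e mi * μ a = 1 := by rw [hM, C.mul_eq e h1, C.id_eq e h3]
  calc μ a⁻¹ = (mc s dec e mi * μ a) * μ a⁻¹ := by rw [h4, one_mul]
    _ = mc s dec e mi * μ (a * a⁻¹) := by rw [mul_assoc, map_mul]
    _ = mc s dec e mi := by rw [mul_inv_cancel, map_one, mul_one]

theorem wvc_spec (C : Cod s A M q dec) (e : ι ≃ Fin d) {μ : S →* Matrix ι ι F}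
    {h : ℕ → S} {Mt Mi : ℕ → ℕ} {Id : ℕ} (hM : ∀ i < k, μ (h i) = mc s dec e (Mt i))
    (hI : ∀ i < k, mulB s A M d (Mi i) (Mt i) Id = true) (h3 : idB s d Id = true) (v : ℕ) :
    ∀ u : List ℕ, u.all (isLet (2 * k)) = true →
      μ ((u.map (fam h k)).prod) *ᵥ vc s dec e v = vc s dec e (wvc s A M d (mfm Mt Mi) u v) := by
  intro u
  induction u with
  | nil => intro _; rw [List.map_nil, List.prod_nil, map_one, Matrix.one_mulVec, wvc_nil]
  | cons x u ih =>
    intro hu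
    rw [List.all_cons, Bool.and_eq_true] at hu
    rw [List.map_cons, List.prod_cons, map_mul, ← Matrix.mulVec_mulVec, ih hu.2, wvc_cons, ← C.mulVec]
    congr 1
    have hx := isLet_iff.1 hu.1
    unfold fam mfm
    rw [if_pos hu.1]
    split_ifs with h5
    · exact hM _ (by omega)
    · exact inv_code C e (hM _ (by omega)) (hI _ (by omega)) h3

/-- Exact relators, checked on one vector. -/
theorem exact_words_vec (C : Cod s A M q dec) (hq : q ≤ 2 ^ s) (e : ι ≃ Fin d) {μ : S →* Matrix ι ι F}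
    (hμ : Function.Injective μ)
    {h : ℕ → S} {Mt Mi : ℕ → ℕ} (hM : ∀ i < k, μ (h i) = mc s dec e (Mt i))
    (hn : n ≤ 2 ^ w) (hid : idt = tid w n) (hg : gensB w n idt k gt gi = true)
    (hact : ∀ i < k, actB s A M q d (Mt i) w (gt i) cd n = true)
    {fr : List ℕ} {l Bm Bi Id t : ℕ} (hf : frameB s A M q d cd fr l Bm Bi Id t = true) (hlen : d ≤ fr.length)
    (hfr : ∀ x ∈ fr, x < n) (hl : l ∈ fr) {us : List (List ℕ)} (hR : frB w (tfm gt gi idt k) fr us = true)
    (hI : ∀ i < k, mulB s A M d (Mi i) (Mt i) Id = true) (h3 : idB s d Id = true)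
    {v : ℕ} (hv : wvB s A M d k (mfm Mt Mi) us v = true) {j : ℕ} (hj : j < d) (hv1 : tget s v j = 1)
    (u : List ℕ) (hu : u ∈ us) : (u.map (fam h k)).prod = 1 := by
  have hval := tfm_valid hn hid hg
  have hm := fam_mem hn hid hg (gen_mem C hq e hM hg hact)
  obtain ⟨σ, h1, h2⟩ := word_spec hval hm u
  have hfix : ∀ i : Fin n, (i : ℕ) ∈ fr → σ i = i := by
    intro i hi
    apply Fin.ext
    rw [h2]
    exact Nat.eq_of_beq_eq_true ((lall_iff _ _).1 ((lall_iff _ _).1 hR u hu) _ hi)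
  obtain ⟨c, hc⟩ := proj_scalar C e hf hlen hfr hl _ σ h1 hfix
  have h4 := (lall_iff _ _).1 hv u hu
  rw [Bool.and_eq_true] at h4
  have h5 := wvc_spec C e hM hI h3 v u h4.1
  rw [Nat.eq_of_beq_eq_true h4.2, hc, Matrix.smul_mulVec, Matrix.one_mulVec] at h5
  have h6 := congrFun h5 (e.symm ⟨j, hj⟩)
  have h7 : vc s dec e v (e.symm ⟨j, hj⟩) = 1 := by
    show dec (tget s v (e (e.symm ⟨j, hj⟩))) = 1
    rw [Equiv.apply_symm_apply]
    show dec (tget s v j) = 1
    rw [hv1, C.one]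
  rw [Pi.smul_apply, h7, smul_eq_mul, mul_one] at h6
  apply hμ
  rw [hc, h6, one_smul, map_one]

end

end Cfsg.Agent.MLin
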